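import Cfsg.Agent.Lib.RC2.El

/-! # S3860: Sylow counts and the lemmas (A), (B) -/

set_option autoImplicit false
set_option linter.unusedSectionVars false
set_option linter.unusedVariables false

namespace Cfsg.Lib.RC2

open Subgroup Cfsg.Lib.BG Cfsg.Lib.GW Cfsg.Lib.CT Cfsg.Lib.Transfer
open scoped Cfsg.Lib.Transfer

variable {G : Type*} [Group G] [Finite G] {m : ℕ} {K P R S T X Y : Subgroup G}
  {a c d e f g h r s t u v w x y z d' f' g' x' : G}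

/-- `t` from `RO.re`, made a 2-element by `Iv.exists_tw`, conjugated into `T` inside `CS y`. -/
theorem Tri.ex_iv (h : Tri y R T) : ∃ t ∈ T, Iv t y := by
  obtain ⟨t, e⟩ := h.ro.re
  obtain ⟨n, -, tw, e⟩ := e.exists_tw
  obtain ⟨g, hg, e'⟩ := syl_conj1 h.syl tw e.mem_CS
  refine ⟨_, e', ?_⟩
  have := e.conj g
  rcases hg with hg | hg
  · rwa [hg] at this
  · rw [hg] at this; simpa using this.inv
theorem Tri.not_mem (h : Tri y R T) (ht : Iv t y) : t ∉ R := fun hr =>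
  h.ro.ne (ht.eq_one (h.eq ▸ hr : t ∈ T ⊓ 𝐂[y]).2 h.ro.odd)
theorem Tri.iv (h : Tri y R T) (ht : t ∈ T) (hn : t ∉ R) : Iv t y := 
  (h.syl.le ht).resolve_left fun e => hn (h.eq ▸ ⟨ht, cent_of_conj e⟩)
theorem Tri.ex (h : Tri y R T) : ∃ t ∈ T, t ∉ R := let ⟨t, ht, e⟩ := h.ex_iv; ⟨t, ht, h.not_mem e⟩
theorem Tri.le (h : Tri y R T) : R ≤ T := h.eq ▸ inf_le_left
theorem Tri.le_cent (h : Tri y R T) : R ≤ 𝐂[y] := h.eq ▸ inf_le_right
theorem Tri.mem (h : Tri y R T) (ht : t ∈ T) (hc : t ∈ 𝐂[y]) : t ∈ R := h.eq ▸ ⟨ht, hc⟩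
theorem Tri.norm (h : Tri y R T) : T ≤ 𝐍(R) := h.eq ▸ norm_inf (le_norm T) (h.syl.le.trans (cent_nml_CS y).norm)
theorem Tri.pT (h : Tri y R T) : IsPGroup 2 T := h.syl.pgroup
theorem Tri.pR (h : Tri y R T) : IsPGroup 2 R := pgroup_of_le h.pT h.le
theorem Tri.sylR (h : Tri y R T) : Syl 2 R 𝐂[y] := h.eq ▸ h.syl.inf_nml (cent_nml_CS y)
theorem Tri.mul_mem (h : Tri y R T) (hs : s ∈ T) (ht : t ∈ T) (sR : s ∉ R) (tR : t ∉ R) : s * t ∈ R := 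
  h.mem (T.mul_mem hs ht) ((h.iv hs sR).mul_iv (h.iv ht tR))
theorem Tri.inv_mul_mem (h : Tri y R T) (hs : s ∈ T) (ht : t ∈ T) (sR : s ∉ R) (tR : t ∉ R) :
    s⁻¹ * t ∈ R := h.mul_mem (inv_mem hs) ht (fun e => sR (inv_mem_iff.1 e)) tR
theorem Tri.sup (h : Tri y R T) (ht : t ∈ T) (tR : t ∉ R) : R ⊔ zpowers t = T := 
  le_antisymm (sup_le h.le (zpowers_le.2 ht)) fun s hs =>
    (mem_sup_sq (h.norm ht) (h.mul_mem ht ht tR tR)).2 (by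
      by_cases e : s ∈ R
      exacts [.inl e, .inr (h.inv_mul_mem ht hs tR e)])
theorem Tri.card (h : Tri y R T) : Nat.card T = 2 * Nat.card R := by
  obtain ⟨t, ht, tR⟩ := h.ex
  rw [← card_sup_sq (h.norm ht) tR (h.mul_mem ht ht tR tR), h.sup ht tR]
theorem Tri.conj (h : Tri y R T) (g : G) : Tri (g * y * g⁻¹) (g ⋆ R) (g ⋆ T) := 
  ⟨h.ro.conj g, conj_CS g y ▸ h.syl.conj g, by rw [h.eq, conj_inf, conj_cent1]⟩
theorem tri_ex (hy : RO y) (hX : IsPGroup 2 X) (h : X ≤ CS y) : ∃ R T, Tri y R T ∧ X ≤ T := 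
  let ⟨T, hT, e⟩ := Syl.exists_ge hX h
  ⟨_, T, ⟨hy, hT, rfl⟩, e⟩
theorem tri_ex1 (hy : RO y) (hx : Tw x) (h : x ∈ CS y) : ∃ R T, Tri y R T ∧ x ∈ T := 
  let ⟨R, T, hT, e⟩ := tri_ex hy hx (zpowers_le.2 h)
  ⟨R, T, hT, zpowers_le.1 e⟩

namespace Hyp
variable (H : Hyp G m)
include H

/-- The odd-order elements of the centre generate normal subgroups of odd order. -/
theorem z2 : IsPGroup 2 (center G) := fun g => by
  obtain ⟨i, j, h1, h2, h3, -⟩ := parts (g : G)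
  have : (g : G) ^ j ∈ Od (⊤ : Subgroup G) := le_Od ⟨le_top, norm_of_cent (cent_symm
    ((zpowers_le.2 (pow_mem g.2 j)).trans (center_le_centS ⊤)))⟩ (odd_zpowers h2) (mem_zpowers _)
  rw [H.od, mem_bot] at this
  rw [this, mul_one] at h3
  obtain ⟨k, e⟩ := tw_pow (h3 ▸ h1)
  exact ⟨k, Subtype.ext e⟩
theorem tw_sq (h : x * x ∈ center G) : Tw x := tw_of_sq H.z2 h
theorem z_le_Q : center G ≤ Q2 G := pcore_max (PiGrp.p_iff.2 H.z2) ⟨le_top, le_normalizer_of_normal⟩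
theorem z_le_syl (hP : Syl 2 P X) (h : center G ≤ X) : center G ≤ P := 
  hP.ge_of_norm_p h H.z2 le_normalizer_of_normal
theorem le_m (hx : Re x) (hn : x ∉ center G) (hP : IsPGroup 2 P) (h : P ≤ 𝐂[x]) : Nat.card P ≤ m := by
  obtain ⟨S, hS, e⟩ := Syl.exists_ge hP h
  rw [← H.syl x hx hn S hS]; exact card_le_of_le e
theorem syl_of (hx : Re x) (hn : x ∉ center G) (hP : IsPGroup 2 P) (h : P ≤ 𝐂[x])
    (hc : m ≤ Nat.card P) : Syl 2 P 𝐂[x] := by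
  obtain ⟨S, hS⟩ := Syl.exists (p := 2) 𝐂[x]
  exact hS.of_card_le' hP h (H.syl x hx hn S hS ▸ hc)
theorem central (hx : Re x) (hP : IsPGroup 2 P) (h : P ≤ 𝐂[x]) (hc : m < Nat.card P) :
    x ∈ center G := by_contra fun hn => (H.le_m hx hn hP h).not_gt hc
/-- A real 2-element centralizing a 2-group `R ≥ Z` of order `≥ m` lies in `R`. -/
theorem mem_of_cent (hR : IsPGroup 2 R) (hc : m ≤ Nat.card R) (hZ : center G ≤ R) (hx : Re x) (tw : Tw x)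
    (h : x ∈ 𝐂(R)) : x ∈ R := by
  by_cases hn : x ∈ center G
  · exact hZ hn
  exact zpowers_le.1 ((H.syl_of hx hn hR (le_cent1_iff.2 h) hc).ge_of_norm_p'
    (zpowers_le.2 (self_mem_cent1 x)) tw (zpowers_le.2 (cent_le_norm R h)))
/-- A real element centralized by `R` (order `≥ m`) and by a 2-element `d ∈ N(R) - R` is central. -/
theorem central' (hR : IsPGroup 2 R) (hc : m ≤ Nat.card R) (hx : Re x) (h : R ≤ 𝐂[x]) (hd : d ∈ 𝐍(R))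
    (tw : Tw d) (dR : d ∉ R) (dx : d ∈ 𝐂[x]) : x ∈ center G := 
  H.central hx (pgroup_sup_tw hR hd tw) (sup_le h (zpowers_le.2 dx)) (hc.trans_lt (card_lt_of_lt
    (le_sup_left.lt_of_ne fun e => dR (e ▸ mem_sup_right (mem_zpowers d)))))
theorem cardR (h : Tri y R T) : Nat.card R = m := H.syl y h.ro.re h.ro.nc R h.sylR
theorem cardT (h : Tri y R T) : Nat.card T = 2 * m := by rw [h.card, H.cardR h]
theorem z_le (h : Tri y R T) : center G ≤ R := H.z_le_syl h.sylR (center_le_cent y)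
theorem pos (hy : RO y) : 0 < m := by
  obtain ⟨R, T, h, -⟩ := tri_ex1 hy (tw_inv2 (one_mul 1)) (one_mem _)
  rw [← H.cardR h]; exact Nat.card_pos

/-- `u * y` is real (`Iv.mul`), not central, with centralizer `𝐂[u] ⊓ 𝐂[y]` (`cent_mul_parts`). -/
theorem B (hu : Tw u) (hn : u ∉ center G) (hy : RO y) (hc : u ∈ 𝐂[y]) (h1 : Iv t u) (h2 : Iv t y)
    (hR : Syl 2 R (𝐂[u] ⊓ 𝐂[y])) : Nat.card R = m := by
  obtain ⟨e, h3, -⟩ := cent_mul_parts hu hy.odd hc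
  exact H.syl _ (h1.mul h2 hc).re (fun hz => hn (zpowers_le.2 hz h3)) R (e ▸ hR)
theorem B' (hu : Tw u) (hn : u ∉ center G) (hy : RO y) (hc : u ∈ 𝐂[y]) (h1 : Iv t u) (h2 : Iv t y) :
    ∃ R, Syl 2 R 𝐂[y] ∧ R ≤ 𝐂[u] := by
  obtain ⟨R, hR⟩ := Syl.exists (p := 2) (𝐂[u] ⊓ 𝐂[y])
  exact ⟨R, H.syl_of hy.re hy.nc hR.pgroup (hR.le.trans inf_le_right) (H.B hu hn hy hc h1 h2 hR).ge,
    hR.le.trans inf_le_left⟩
/-- `R` from `B'` is Sylow in `M = 𝐂[y] ⊓ NW u`; conjugate `X` into `R` inside `M`; `𝐂[u]` is normal in `NW u`. -/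
theorem B1 (hu : Tw u) (hn : u ∉ center G) (hy : RO y) (hc : u ∈ 𝐂[y]) (h1 : Iv t u) (h2 : Iv t y)
    (hX : IsPGroup 2 X) (h3 : X ≤ 𝐂[y]) (h4 : X ≤ NW u) : X ≤ 𝐂[u] := by
  obtain ⟨R, hR, e⟩ := H.B' hu hn hy hc h1 h2
  obtain ⟨g, hg, e'⟩ := Syl.exists_le_conj
    (hR.of_le (le_inf hR.le (e.trans (cent_le_NW u))) inf_le_left) hX (le_inf h3 h4)
  exact e'.trans (conj_le_of_norm e ((cent_nml_NW u).norm hg.2))
/-- Otherwise take a Sylow 2-subgroup `P` of `M = 𝐂[u] ⊓ CS y` containing an odd power `t'` of `t`;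
`P ⊓ 𝐂[y]` is Sylow in the normal subgroup `𝐂[u] ⊓ 𝐂[y]` of `M`, of order `m` by `B`, and `t' ∉ 𝐂[y]`,
so `|P| > m`, against `le_m`. -/
theorem A (hu : u * u = 1) (hy : RO y) (hc : u ∈ 𝐂[y]) (ht : u ∈ 𝐂[t]) (h : Iv t y) :
    u ∈ center G := by
  by_contra hn
  obtain ⟨n, -, tw, e⟩ := h.exists_tw
  have ht' : t ^ n ∈ 𝐂[u] := pow_mem (mem_cent1_symm ht) n
  obtain ⟨P, hP, tP⟩ := Syl.exists_ge (M := 𝐂[u] ⊓ CS y) tw (zpowers_le.2 ⟨ht', e.mem_CS⟩)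
  have h1 := H.B (tw_inv2 hu) hn hy hc (.of_sq hu ht') e (hP.inf_nml ⟨inf_le_inf_left _ (cent_le_CS y),
    norm_inf (le_norm_of_le inf_le_left) (inf_le_right.trans (cent_nml_CS y).norm)⟩)
  have h2 := H.le_m (re_of_sq hu) hn hP.pgroup (hP.le.trans inf_le_left)
  have h3 := eq_of_le_of_card_le (inf_le_left : P ⊓ (𝐂[u] ⊓ 𝐂[y]) ≤ P) (h1 ▸ h2)
  exact hy.ne (e.eq_one (h3.ge (zpowers_le.1 tP)).2.2 hy.odd)

end Hyp

end Cfsg.Lib.RC2
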