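import Cfsg.Agent.Lib.RC2.El
import Cfsg.Agent.Lib.PLocal.BaerSuzuki
import Cfsg.Agent.S3861

/-! # S3860: the normalizer step, Baer-Suzuki, 2-closure -/

set_option autoImplicit false
set_option linter.unusedSectionVars false
set_option linter.unusedVariables false

namespace Cfsg.Lib.RC2

open Subgroup Cfsg.Lib.BG Cfsg.Lib.GW Cfsg.Lib.CT Cfsg.Lib.Transfer
open scoped Cfsg.Lib.Transfer

variable {G : Type*} [Group G] [Finite G] {m : ℕ} {H K P R S T X Y : Subgroup G}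
  {a c d e f g h r s t u v w x y z d' f' g' x' : G}

/-- Take `g` from `exists_norm_sq` for `T ⊓ NW u < T`; `u' = g u g⁻¹ ∈ T ⊓ NW u` (as `u` lies there),
`e = ph u' u` is central with `e² = 1`, `v = u u'⁻¹ = ph u g` has `v² = e`; `u v u⁻¹ = e v`, so `v` is
inverted by `u`.  For `s ∈ T ⊓ NW u`: `ph s u' = ph (g⁻¹ s g) u` (`ph_conj`), its own inverse.
`g v g⁻¹ = (ph (g*g) u) v⁻¹`, so `ph g v = ph (g * g * u') u`. -/
theorem step (hT : IsPGroup 2 T) (hu : u ∈ T) (u2 : u * u ∈ center G) (h : ¬ T ≤ NW u) :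
    ∃ g ∈ T, g ∉ NW u ∧ g * g ∈ NW u ∧ g ∈ 𝐍(T ⊓ NW u) ∧ W0 (u * (g * u * g⁻¹)⁻¹) ∧
      T ⊓ NW u ≤ NW (u * (g * u * g⁻¹)⁻¹) ∧ g ∈ NW (u * (g * u * g⁻¹)⁻¹) ∧
      (∀ s ∈ T ⊓ NW u, ph s (u * (g * u * g⁻¹)⁻¹) = ph s u * ph (g⁻¹ * s * g) u) ∧
      ∃ s ∈ T ⊓ NW u, ph g (u * (g * u * g⁻¹)⁻¹) = ph s u := by
  obtain ⟨g, gT, gX, g2, gn⟩ := exists_norm_sq hT (X := T ⊓ NW u) (inf_lt_left.2 h)
  have gN : g ∉ NW u := fun e => gX ⟨gT, e⟩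
  have u' : g * u * g⁻¹ ∈ T ⊓ NW u := conj_mem_of_norm gn ⟨hu, self_mem_NW u⟩
  have sq := conj_sq u2 g
  have key : ∀ s ∈ T ⊓ NW u, s ∈ NW (g * u * g⁻¹) ∧ ph s (g * u * g⁻¹) = ph (g⁻¹ * s * g) u := by
    intro s hs
    have h1 : g⁻¹ * s * g ∈ NW u := (conj_mem_of_norm' gn hs).2
    have h2 := ph_conj g (g⁻¹ * s * g) u
    rw [conj_center h1, show g * (g⁻¹ * s * g) * g⁻¹ = s by group] at h2
    exact ⟨by rw [mem_NW, h2]; exact h1, h2⟩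
  have key2 : ∀ s ∈ T ⊓ NW u, ph s (u * (g * u * g⁻¹)⁻¹) = ph s u * ph (g⁻¹ * s * g) u := by
    intro s hs
    obtain ⟨h1, h2⟩ := key s hs
    rw [ph_mul_right hs.2 (NW_symm (inv_mem (NW_symm h1))), ph_inv_right h1, h2,
      inv_eq_of_mul_eq_one_right (ph_sq u2 (conj_mem_of_norm' gn hs).2)]
  have iv : Iv u (u * (g * u * g⁻¹)⁻¹) := by
    have := (dih (x := u⁻¹) (x' := (g * u * g⁻¹)⁻¹) (by rw [← mul_inv_rev, ← mul_inv_rev, sq])).inv_left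
    simpa only [inv_inv] using this
  have v2 : u * (g * u * g⁻¹)⁻¹ * (u * (g * u * g⁻¹)⁻¹) = ph (g * u * g⁻¹)⁻¹ u := by
    calc _ = u * ph (g * u * g⁻¹)⁻¹ u * u⁻¹ * (u * u * (g * u * g⁻¹ * (g * u * g⁻¹))⁻¹) := by
          unfold ph; group
      _ = _ := by rw [sq, mul_inv_cancel, mul_one, conj_center ((NW u).inv_mem u'.2)]
  have e2 : ph g (u * (g * u * g⁻¹)⁻¹) = ph (g * g * (g * u * g⁻¹)) u := by
    rw [ph_mul g2.2 u'.2, ← inv_inv (ph (g * u * g⁻¹) u), ← ph_inv' u'.2, ← v2,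
      ← inv_eq_of_mul_eq_one_right (ph_sq u2 g2.2)]
    calc _ = g * u * g⁻¹ * u⁻¹ * (ph (g * g) u)⁻¹ * (g * u * g⁻¹ * u⁻¹)⁻¹ *
          (u * (g * u * g⁻¹)⁻¹ * (u * (g * u * g⁻¹)⁻¹))⁻¹ := by unfold ph; group
      _ = _ := by rw [conj_center (inv_mem g2.2)]
  refine ⟨g, gT, gN, g2.2, gn, ⟨fun e => gN (NW_symm ?_), ?_, u, u2, iv⟩, fun s hs => ?_, ?_, key2,
    _, mul_mem g2 u', e2⟩
  · rwa [mem_NW, show ph u g = u * (g * u * g⁻¹)⁻¹ by unfold ph; group]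
  · rw [v2]; exact (NW u).inv_mem u'.2
  · rw [mem_NW, key2 s hs]; exact mul_mem hs.2 (conj_mem_of_norm' gn hs).2
  · rw [mem_NW, e2]; exact (mul_mem g2 u').2

/-- Iterate `step`: `T ⊓ NW u` grows strictly (well-founded `>` on subgroups). -/
theorem chain (hT : IsPGroup 2 T) (hR : R ≤ T) (hn : T ≤ 𝐍(R)) (hu : u ∈ R) (hW : W0 u) :
    ∃ v ∈ R, W0 v ∧ T ≤ NW v := by
  induction e : T ⊓ NW u using WellFoundedGT.induction generalizing u with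
  | ind A ih =>
  by_cases h : T ≤ NW u
  · exact ⟨u, hu, hW, h⟩
  obtain ⟨g, gT, gN, -, -, h1, h2, h3, -⟩ := step hT (hR hu) hW.sq h
  refine ih _ ?_ (mul_mem hu (inv_mem (conj_mem_of_norm (hn gT) hu))) h1 rfl
  rw [← e]
  exact (le_inf inf_le_left h2).lt_of_ne fun e' => gN (e'.ge ⟨gT, h3⟩).2

/-- `PLocal.exists_conj_not_isPGroup_of_not_mem_pCore_map`; with `h = x⁻¹ x'` inverted by `x` (`dih`),
`closure {x, x'} ≤ zpowers h ⊔ zpowers x` is a 2-group when `h` is a 2-element. -/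
theorem bs (hx : Tw x) (xH : x ∈ H) (x2 : x * x ∈ 𝐂(H)) (h : x ∉ 𝐎({2}, H)) :
    ∃ g ∈ H, ¬ Tw (x⁻¹ * (g * x * g⁻¹)) := by
  obtain ⟨g, hg, e⟩ := PLocal.exists_conj_not_isPGroup_of_not_mem_pCore_map (p := 2) xH
    (by rwa [← pcore_p_eq])
  refine ⟨g, hg, fun tw => e (pgroup_of_le (pgroup_sup_tw tw (dih ?_).norm hx) ?_)⟩
  · rw [conj_mul, mem_cent.1 x2 g hg, mul_inv_cancel_right]
  · rw [closure_le]
    rintro _ (rfl | rfl)
    · exact mem_sup_right (mem_zpowers _)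
    · simpa using mul_mem (mem_sup_right (mem_zpowers x))
        (mem_sup_left (T := zpowers x) (mem_zpowers (x⁻¹ * (g * x * g⁻¹))))

/-- The odd part of the element given by `bs`. -/
theorem bs' (hx : Tw x) (xH : x ∈ H) (x2 : x * x ∈ 𝐂(H)) (h : x ∉ 𝐎({2}, H)) :
    ∃ y ∈ H, RO y ∧ Iv x y := by
  obtain ⟨g, hg, e⟩ := bs hx xH x2 h
  obtain ⟨i, j, h1, h2, h3, -⟩ := parts (x⁻¹ * (g * x * g⁻¹))
  have iv := (dih (x := x) (x' := g * x * g⁻¹)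
    (by rw [conj_mul, mem_cent.1 x2 g hg, mul_inv_cancel_right])).pow j
  exact ⟨_, pow_mem (mul_mem (inv_mem xH) (mul_mem (mul_mem hg xH) (inv_mem hg))) j,
    ⟨fun e' => e (by rw [e', mul_one] at h3; exact h3 ▸ h1), h2, iv.re⟩, iv⟩

/-- `S3861.result` in the group `H`. -/
theorem closed_of (h : ∀ y ∈ H, ∀ t ∈ H, Odd (orderOf y) → Iv t y → y = 1) : Syl 2 𝐎({2}, H) H := by
  obtain ⟨P⟩ : Nonempty (Sylow 2 H) := inferInstance
  have hn := (Cfsg.Agent.S3861.result P).1 fun y h1 ho hc => by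
    obtain ⟨t, e⟩ := re_iff.2 hc
    exact h1 (Subtype.ext (h y y.2 t t.2 (by rwa [orderOf_coe]) (e.map H.subtype)))
  rw [(Syl.of_sylow P).pcore_eq' (Nml.of_normal H P.1).norm]
  exact Syl.of_sylow P

/-- `closed_of` and `odd_cent`. -/
theorem closed_NW (hw : w * w ∈ center G)
    (hi : ∀ y ∈ 𝐂[w], ∀ t ∈ NW w, Odd (orderOf y) → Iv t y → y = 1) : Syl 2 𝐎({2}, NW w) (NW w) := 
  closed_of fun y hy t ht ho e => hi y (odd_cent hw hy ho) t ht ho e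

theorem mem_closed (h : Syl 2 𝐎({2}, H) H) (hx : x ∈ H) (tw : Tw x) : x ∈ 𝐎({2}, H) := 
  h.mem_of_normal (pcore_nml _ H).norm hx (tw_iff.1 tw)
theorem le_closed (h : Syl 2 𝐎({2}, H) H) (hX : X ≤ H) (tw : IsPGroup 2 X) : X ≤ 𝐎({2}, H) := 
  h.ge_of_normal (pcore_nml _ H).norm hX (PiGrp.p_iff.2 tw)

end Cfsg.Lib.RC2
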