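import Cfsg.Agent.Lib.RC2.Bas
import Cfsg.Agent.Lib.RC2.St

/-! # S3860: no four-group over a Sylow 2-subgroup of the centralizer of a real odd element -/

set_option autoImplicit false
set_option linter.unusedSectionVars false
set_option linter.unusedVariables false

namespace Cfsg.Lib.RC2

open Subgroup Cfsg.Lib.BG Cfsg.Lib.GW Cfsg.Lib.CT Cfsg.Lib.Transfer
open scoped Cfsg.Lib.Transfer

variable {G : Type*} [Group G] [Finite G] {m : ℕ} {K P R S T X Y : Subgroup G}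
  {a c d e f g h r s t u v w x y z d' f' g' x' : G}

/-- A four-group (modulo `R`, which acts trivially) acting on a group `Y` of odd order: `Y` is generated by the
centralizers of `d`, `e`, `d * e` (pass to `quo · R`, or to the image in `MulAut Y`; if `e` or `d * e`
centralizes `Y` there is nothing to generate).  So `d` fails to centralize some `o ∈ Y` commuting with `e` or
`d * e`; take `h = o⁻¹ * (d o d⁻¹)` (`iv_comm`); `d` and `e` commute modulo `R`. -/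
theorem four (hY : Odd (Nat.card Y)) (hR : IsPGroup 2 R) (hc : Y ≤ 𝐂(R)) (dY : d ∈ 𝐍(Y)) (eY : e ∈ 𝐍(Y))
    (hd : d ∈ 𝐍(R)) (he : e ∈ 𝐍(R)) (d2 : d * d ∈ R) (e2 : e * e ∈ R) (de2 : d * e * (d * e) ∈ R)
    (h : ¬ Y ≤ 𝐂[d]) : ∃ a ∈ Y, a ≠ 1 ∧ Iv d a ∧ (a ∈ 𝐂[e] ∨ a ∈ 𝐂[d * e]) := by
  have k1 : ∀ u : 𝐍(R), qhom R u = 1 ↔ u.1 ∈ R := fun u => by
    rw [← MonoidHom.mem_ker, qhom_ker, mem_subgroupOf]
  have hn : Y ≤ 𝐍(R) := norm_of_cent hc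
  have key : ∀ (g : G) (hg : g ∈ 𝐍(R)), g ∈ 𝐍(Y) → ∀ (o : G) (ho : o ∈ Y),
      qhom R ⟨o, hn ho⟩ ∈ 𝐂[qhom R ⟨g, hg⟩] → o ∈ 𝐂[g] := by
    intro g hg gY o ho k
    have k2 : g * o * g⁻¹ * o⁻¹ ∈ R := by
      refine (k1 (⟨g, hg⟩ * ⟨o, hn ho⟩ * ⟨g, hg⟩⁻¹ * ⟨o, hn ho⟩⁻¹)).1 ?_
      rw [map_mul, map_mul, map_mul, map_inv, map_inv, ← mem_cent1.1 k]; group
    have k3 : g * o * g⁻¹ * o⁻¹ ∈ Y := mul_mem (conj_mem_of_norm gY ho) (inv_mem ho)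
    have k4 := tw_eq_one (tw_of_mem hR k2) (hY.of_dvd_nat (orderOf_dvd_natCard _ k3))
    exact mem_cent1_symm (ph_eq_one.1 k4)
  have D2 : qhom R ⟨d, hd⟩ * qhom R ⟨d, hd⟩ = 1 := by rw [← map_mul, k1]; exact d2
  have E2 : qhom R ⟨e, he⟩ * qhom R ⟨e, he⟩ = 1 := by rw [← map_mul, k1]; exact e2
  have DE2 : qhom R ⟨d, hd⟩ * qhom R ⟨e, he⟩ * (qhom R ⟨d, hd⟩ * qhom R ⟨e, he⟩) = 1 := by
    rw [← map_mul, ← map_mul, k1]; exact de2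
  have cm : qhom R ⟨d, hd⟩ * qhom R ⟨e, he⟩ = qhom R ⟨e, he⟩ * qhom R ⟨d, hd⟩ := by
    rw [← inv_eq_of_mul_eq_one_right DE2, mul_inv_rev, inv_eq_of_mul_eq_one_right D2,
      inv_eq_of_mul_eq_one_right E2]
  have cR : e⁻¹ * d⁻¹ * e * d ∈ R := by
    refine (k1 (⟨e, he⟩⁻¹ * ⟨d, hd⟩⁻¹ * ⟨e, he⟩ * ⟨d, hd⟩)).1 ?_
    rw [map_mul, map_mul, map_mul, map_inv, map_inv, mul_assoc, ← cm]; group
  have cY : ∀ g ∈ R, Y ≤ 𝐂[g] := fun g hg => hc.trans (cent_le_cent1 hg)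
  have ex : ∃ o ∈ Y, o ∉ 𝐂[d] ∧ (o ∈ 𝐂[e] ∨ o ∈ 𝐂[d * e]) := by
    by_contra c
    have c1 : ∀ o ∈ Y, o ∈ 𝐂[e] → o ∈ 𝐂[d] := fun o ho k => by_contra fun k' => c ⟨o, ho, k', .inl k⟩
    have c2 : ∀ o ∈ Y, o ∈ 𝐂[d * e] → o ∈ 𝐂[d] := fun o ho k => by_contra fun k' => c ⟨o, ho, k', .inr k⟩
    have f4 : Small.FourGen (qhom R ⟨d, hd⟩) (qhom R ⟨e, he⟩) := by
      refine ⟨fun k => h (cY d ((k1 _).1 k)), fun k => h fun o ho => c1 o ho (cY e ((k1 _).1 k) ho),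
        fun k => h fun o ho => c2 o ho (cY (d * e) ((k1 (⟨d, hd⟩ * ⟨e, he⟩)).1 ?_) ho), D2, E2, cm⟩
      rw [map_mul, k]; exact E2
    have nq : ∀ (g : G) (hg : g ∈ 𝐍(R)), g ∈ 𝐍(Y) → qhom R ⟨g, hg⟩ ∈ 𝐍(quo Y R) := fun g hg gY =>
      quo_norm (X := zpowers g) (zpowers_le.2 gY) R (mem_quo.2 ⟨_, mem_zpowers g, rfl⟩)
    have up : ∀ (o : G) (ho : o ∈ Y), o ∈ 𝐂[d] → qhom R ⟨o, hn ho⟩ ∈ 𝐂[qhom R ⟨d, hd⟩] := fun o ho k =>
      mem_cent1.2 (by rw [← map_mul, ← map_mul]; exact congrArg _ (Subtype.ext (mem_cent1.1 k)))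
    have := gen_four f4 (H := 𝐂[qhom R ⟨d, hd⟩]) (nq d hd dY) (nq e he eY)
      (hY.of_dvd_nat (card_quo_dvd Y R)) inf_le_right (by
        rintro _ ⟨⟨⟨o, _⟩, ho, rfl⟩, k⟩
        exact up o ho (c1 o ho (key e he eY o ho k))) (by
        rintro _ ⟨⟨⟨o, _⟩, ho, rfl⟩, k⟩
        exact up o ho (c2 o ho (key (d * e) (mul_mem hd he) (mul_mem dY eY) o ho k)))
    exact h fun o ho => key d hd dY o ho (this (mem_quo.2 ⟨_, ho, rfl⟩))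
  obtain ⟨o, ho, od, oe⟩ := ex
  refine ⟨o⁻¹ * (d * o * d⁻¹), mul_mem (inv_mem ho) (conj_mem_of_norm dY ho), fun k => od ?_,
    iv_comm (mem_cent1_symm (cY _ d2 ho)), ?_⟩
  · exact mem_cent1_symm (cent_of_conj (inv_mul_eq_one.1 k).symm)
  have k3 := cent_conj (mem_cent1_symm (cY _ cR ho))
  refine oe.imp (fun k => mem_cent1_symm (cent_of_conj ?_)) (fun k => mem_cent1_symm (cent_of_conj ?_))
  · have k4 := cent_conj (mem_cent1_symm k)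
    calc e * (o⁻¹ * (d * o * d⁻¹)) * e⁻¹ = (e * o * e⁻¹)⁻¹ * (d * (e * ((e⁻¹ * d⁻¹ * e * d) * o *
          (e⁻¹ * d⁻¹ * e * d)⁻¹) * e⁻¹) * d⁻¹) := by group
      _ = _ := by rw [k3, k4]
  · have k4 := cent_conj (mem_cent1_symm k)
    calc d * e * (o⁻¹ * (d * o * d⁻¹)) * (d * e)⁻¹ = (d * e * o * (d * e)⁻¹)⁻¹ * (d * (d * e *
          ((e⁻¹ * d⁻¹ * e * d) * o * (e⁻¹ * d⁻¹ * e * d)⁻¹) * (d * e)⁻¹) * d⁻¹) := by group
      _ = _ := by rw [k3, k4]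

namespace Hyp
variable (H : Hyp G m) (hy : RO y) (hR : Syl 2 R 𝐂[y])
include H hy hR

theorem cardS : Nat.card R = m := H.syl y hy.re hy.nc R hR
theorem z_leS : center G ≤ R := H.z_le_syl hR (center_le_cent y)

/-- `ph d c ∈ 𝐂(R)` is inverted by `d` (`iv_comm'`); `mem_of_cent`. -/
theorem F0 (hd : d ∈ 𝐍(R)) (d2 : d * d ∈ R) (hc : c ∈ 𝐂(R)) {n : ℕ} (tw : Tw (ph d c ^ n)) :
    ph d c ^ n ∈ R := by
  have h1 : ph d c ∈ 𝐂(R) := mul_mem (conj_mem_of_norm (norm_cent le_rfl hd) hc) (inv_mem hc)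
  exact H.mem_of_cent hR.pgroup (H.cardS hy hR).ge (H.z_leS hy hR)
    ((iv_comm' (mem_cent1_symm (cent_le_cent1 d2 hc))).pow n).re tw (pow_mem h1 n)

/-- `CT.zrel` in `M = 𝐂(R) ⊔ (R ⊔ zpowers d)` with `N := R` and a Sylow `S ≥ R ⊔ zpowers d`: a conjugate of `d`
under `M` is `c d₁ c⁻¹` with `c ∈ 𝐂(R)`, `d₁ ∈ d R`; if it lies in `S` then so does `c d c⁻¹`, so the
2-element `ph d c` lies in `R` by `F0`.  Get `N'`.  `N'' = N' ⊓ 𝐂(R)` is normal in `𝐂(R)` with the central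
Sylow 2-subgroup `S ⊓ N'' ≤ R`, so its elements of odd order lie in `Od N'' ≤ Od 𝐂(R)`.  Let
`h = ph d y ∈ N''` (`parts`).  If `Od 𝐂(R) ≤ 𝐂[d]`, the odd part of `h` is trivial (`Iv.eq_one`), so
`h ∈ R` (`F0`), `d y d⁻¹ = h y` gives `h = 1` (`tw_eq_one_of_mul`), and `R ⊔ zpowers d ≤ 𝐂[y]`. -/
theorem F1 (hd : d ∈ 𝐍(R)) (d2 : d * d ∈ R) (dR : d ∉ R) : ¬ Od 𝐂(R) ≤ 𝐂[d] := by
  intro hO
  have hP : IsPGroup 2 ↥(R ⊔ zpowers d) := pgroup_sup_tw hR.pgroup hd (tw_of_sq hR.pgroup d2)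
  have Pn : R ⊔ zpowers d ≤ 𝐍(R) := sup_le (le_norm R) (zpowers_le.2 hd)
  have Mn : 𝐂(R) ⊔ (R ⊔ zpowers d) ≤ 𝐍(R) := sup_le (cent_le_norm R) Pn
  obtain ⟨S, hS, PS⟩ := Syl.exists_ge (M := 𝐂(R) ⊔ (R ⊔ zpowers d)) hP le_sup_right
  have dS : d ∈ S := PS (mem_sup_right (mem_zpowers d))
  have RS : R ≤ S := le_sup_left.trans PS
  obtain ⟨N, hN, RN, SN, hg⟩ := zrel hS (N := R) ⟨le_sup_left.trans le_sup_right, Mn⟩ dS dR d2 (by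
    intro g hg k
    obtain ⟨c, hc, p, hp, rfl⟩ := (mem_sup_left_norm (norm_cent Pn)).1 hg
    have r1 : d⁻¹ * (p * d * p⁻¹) ∈ R := by
      rcases (mem_sup_sq hd d2).1 hp with k1 | k1
      · rw [show d⁻¹ * (p * d * p⁻¹) = d⁻¹ * p * d * p⁻¹ by group]
        exact mul_mem (conj_mem_of_norm' hd k1) (inv_mem k1)
      · rw [show d⁻¹ * (p * d * p⁻¹) = d⁻¹ * p * (d * (d⁻¹ * p)⁻¹ * d⁻¹) by group]
        exact mul_mem k1 (conj_mem_of_norm hd (inv_mem k1))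
    have e1 : c * p * d * (c * p)⁻¹ = c * d * c⁻¹ * (d⁻¹ * (p * d * p⁻¹)) := by
      rw [← cent_conj (cent_le_cent1 r1 hc)]; group
    rw [e1] at k ⊢
    have k2 : c * d * c⁻¹ ∈ S := (mul_mem_cancel_right (RS r1)).1 k
    have k3 : ph d c ∈ S := by
      rw [show ph d c = d * (c * d * c⁻¹)⁻¹ by unfold ph; group]
      exact mul_mem dS (inv_mem k2)
    have k4 := H.F0 hy hR hd d2 hc (n := 1) (by rw [pow_one]; exact tw_of_mem hS.pgroup k3)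
    rw [pow_one] at k4
    rw [show d⁻¹ * (c * d * c⁻¹ * (d⁻¹ * (p * d * p⁻¹))) = d⁻¹ * (ph d c)⁻¹ * d * (d⁻¹ * (p * d * p⁻¹)) by
      unfold ph; group]
    exact mul_mem (conj_mem_of_norm' hd (inv_mem k4)) r1)
  have hN' : Nml (N ⊓ 𝐂(R)) (𝐂(R) ⊔ (R ⊔ zpowers d)) := hN.inf_cent Mn
  have hS' : Syl 2 (S ⊓ (N ⊓ 𝐂(R))) (N ⊓ 𝐂(R)) := hS.inf_nml hN'
  have SR : S ⊓ (N ⊓ 𝐂(R)) ≤ R := (inf_le_inf_left _ inf_le_left).trans SN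
  have sd := Burnside_normal_complement hS' (inf_le_left.trans (inf_le_right.trans (cent_anti SR)))
  have yR : y ∈ 𝐂(R) := le_cent1_iff.1 hR.le
  have h1 : ph d y ∈ N ⊓ 𝐂(R) :=
    mem_inf.2 ⟨hg y (mem_sup_left yR), mul_mem (conj_mem_of_norm (norm_cent le_rfl hd) yR) (inv_mem yR)⟩
  have iv : Iv d (ph d y) := iv_comm' (hR.le d2)
  obtain ⟨o, ho, s, hs, e⟩ := (mem_sup_left_norm sd.norm).1 (sd.sup.ge h1)
  have oC : o ∈ Od 𝐂(R) := (hN'.of_le inf_le_right le_sup_left).pcore_le _ ho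
  have sR := SR hs
  have o1 : o = 1 := by
    have k1 : d * o * d⁻¹ = o := cent_conj (mem_cent1_symm (hO oC))
    have k2 : s * o = o * s := mem_cent.1 (Od_le _ oC) s sR
    have k3 : o * o = s⁻¹ * (d * s * d⁻¹)⁻¹ := by
      have k4 : d * (o * s) * d⁻¹ = (o * s)⁻¹ := by rw [e]; exact iv
      calc o * o = o * (d * o * d⁻¹) := by rw [k1]
        _ = o * (d * (o * s) * d⁻¹) * (d * s * d⁻¹)⁻¹ := by group
        _ = _ := by rw [k4, ← k2]; group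
    exact tw_eq_one (tw_of_sq hR.pgroup (k3 ▸ mul_mem (inv_mem sR) (inv_mem (conj_mem_of_norm hd sR))))
      (odd_of_mem_Od oC)
  rw [o1, one_mul] at e
  have h2 : ph d y = 1 := tw_eq_one_of_mul (e ▸ tw_of_mem hR.pgroup sR) (e ▸ hR.le sR) hy.odd (by
    rw [← conj_eq_ph]; exact (hy.conj d).odd)
  exact dR ((hR.eq_of_le_pgroup le_sup_left (sup_le hR.le (zpowers_le.2 (ph_eq_one.1 h2))) hP).ge
    (mem_sup_right (mem_zpowers d)))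

/-- `four` with `Y := Od 𝐂(R)` gives a real `a ≠ 1` of odd order centralized by `R` and `e` or `d * e`:
`central'` and `RO.nc`. -/
theorem Fp (hd : d ∈ 𝐍(R)) (he : e ∈ 𝐍(R)) (d2 : d * d ∈ R) (e2 : e * e ∈ R) (de2 : d * e * (d * e) ∈ R)
    (dR : d ∉ R) (eR : e ∉ R) (deR : d * e ∉ R) : False := by
  have n : 𝐍(R) ≤ 𝐍(Od 𝐂(R)) := norm_pcore (norm_cent le_rfl) _
  obtain ⟨a, ha, a1, iv, k⟩ := four (odd_Od 𝐂(R)) hR.pgroup (Od_le _) (n hd) (n he) hd he d2 e2 de2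
    (H.F1 hy hR hd d2 dR)
  have ro : RO a := ⟨a1, odd_of_mem_Od ha, iv.re⟩
  have aR : R ≤ 𝐂[a] := le_cent1_iff.2 (Od_le _ ha)
  refine ro.nc (k.elim (fun k => ?_) fun k => ?_)
  · exact H.central' hR.pgroup (H.cardS hy hR).ge iv.re aR he (tw_of_sq hR.pgroup e2) eR (mem_cent1_symm k)
  · exact H.central' hR.pgroup (H.cardS hy hR).ge iv.re aR (mul_mem hd he) (tw_of_sq hR.pgroup de2) deR
      (mem_cent1_symm k)

end Hyp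

end Cfsg.Lib.RC2
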