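import Cfsg.Agent.Lib.RC2.CL
import Cfsg.Agent.Lib.RC2.F

/-! # S3860: the case of 2-part at least 4, part 1 -/

set_option autoImplicit false
set_option linter.unusedSectionVars false
set_option linter.unusedVariables false

namespace Cfsg.Lib.RC2

open Subgroup Cfsg.Lib.BG Cfsg.Lib.GW Cfsg.Lib.CT Cfsg.Lib.Transfer
open scoped Cfsg.Lib.Transfer

variable {G : Type*} [Group G] [Finite G] {m : ℕ} {H K P R S T X Y : Subgroup G}
  {a c d e f g h r s t u v w x y z d' f' g' x' : G}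

namespace Big
variable (B : Big G m)
include B

/-- A subgroup of order `m` has index at least 4 in a Sylow 2-subgroup. -/
theorem b1_out (hS : Syl 2 S ⊤) (hX : Nat.card X ≤ 2 * Nat.card R) (hc : Nat.card R = m) : ∃ e ∈ S, e ∉ X := by
  by_contra! h
  have h1 := B.big S hS
  have h2 : Nat.card S ≤ Nat.card X := card_le_of_le h
  have h3 : 0 < Nat.card R := Nat.card_pos
  omega

/-- `L'` over a subgroup `R ≤ X ⊓ 𝐂[w]` of order `m`. -/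
theorem b1_syl (hw : W w) (hX : IsPGroup 2 X) (h : X ≤ NW w) (h1 : R ≤ X) (h2 : R ≤ 𝐂[w]) (hc : Nat.card R = m) :
    ∃ S, Syl 2 S ⊤ ∧ X ≤ S ∧ S ≤ 𝐍(R) ∧ (∀ s ∈ S, s * s ∈ R) ∧ ∀ s ∈ S, ∀ t ∈ S, s * t * s⁻¹ * t⁻¹ ∈ R := by
  obtain ⟨S, hS, l, n, c⟩ := B.hyp.L' hw hX h
  have e : R = S ⊓ 𝐂[w] := eq_of_le_of_card_le (le_inf (h1.trans l) h2) (by rw [c, hc])
  refine ⟨S, hS, l, e ▸ norm_inf (le_norm S) (n.trans (cent_nml_NW w).norm), fun s hs => ?_, fun s hs t ht => ?_⟩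
  · exact e ▸ mem_inf.2 ⟨mul_mem hs hs, sq_cent hw.sq (n hs)⟩
  · exact e ▸ mem_inf.2 ⟨mul_mem (mul_mem (mul_mem hs ht) (inv_mem hs)) (inv_mem ht),
      der_NW w (comm_mem_comm (n hs) (n ht))⟩

/-- Suppose `u * u ∉ Z`.  Let `w` be the last power of `u` outside `Z`; `w ∈ 𝒲` and `CS u ≤ NW w`.  Let `T` be
Sylow in `CS u`, containing `u`; `R = T ⊓ 𝐂[u]` has order `m`, and some `s ∈ T` inverts `u` (as in
`Tri.ex_iv`).  `L'` gives `T ≤ S ≤ NW w` with `S ⊓ 𝐂[w] = R` (orders), normal in `S`, containing squares and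
commutators of `S` (`sq_cent`, `der_NW`).  `|T| ≤ 2 m < |S|`: take `s' ∈ S - T`, `u' = s' u s'⁻¹ ∈ R ⊓ 𝐂(R)`.
Then `s` inverts `u'`, and `u * u'` is real and centralized by `R` and `s'`, so central (`central'`).  The same
for `s * s' ∉ T` gives `u * u'⁻¹ ∈ Z`; multiply. -/
theorem R2 (hu : Tw u) (hr : Re u) : u * u ∈ center G := by
  have := Fact.mk Nat.prime_two
  by_contra h2
  have nc : u ∉ center G := fun e => h2 (mul_mem e e)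
  obtain ⟨k, w1, w2⟩ := last_pow hu nc
  have hw : W (u ^ 2 ^ k) := ⟨w1, w2, hr.pow _⟩
  have cw := cent1_le_cent1_pow u (2 ^ k)
  have l : CS u ≤ NW (u ^ 2 ^ k) := fun g hg =>
    hg.elim (fun e => cent_le_NW _ (cw (mem_cent1.2 (mul_inv_eq_iff_eq_mul.1 e)))) fun e => (e.pow _).mem_NW w2
  obtain ⟨T, hT, uT⟩ := Syl.exists_ge hu (zpowers_le.2 (cent_le_CS u (self_mem_cent1 u)))
  have sR := hT.inf_nml (cent_nml_CS u)
  have cR := B.hyp.syl u hr nc _ sR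
  obtain ⟨s, sT, hs⟩ : ∃ s ∈ T, Iv s u := by
    obtain ⟨t, ht⟩ := hr
    obtain ⟨n, -, tw, ht⟩ := ht.exists_tw
    obtain ⟨g, hg, e⟩ := syl_conj1 hT tw ht.mem_CS
    refine ⟨_, e, ?_⟩
    have := ht.conj g
    rcases hg with c | c
    · rwa [c] at this
    · rw [show g * u * g⁻¹ = u⁻¹ from c] at this
      simpa using this.inv
  have uR : u ∈ T ⊓ 𝐂[u] := ⟨uT (mem_zpowers u), self_mem_cent1 u⟩
  have Ru : T ⊓ 𝐂[u] ≤ 𝐂[u] := inf_le_right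
  have sn : s ∉ T ⊓ 𝐂[u] := fun e => h2 (by rw [hs.sq_eq_one e.2]; exact one_mem _)
  obtain ⟨S, hS, TS, nR, sq, cm⟩ := B.b1_syl hw hT.pgroup (hT.le.trans l) inf_le_left (Ru.trans cw) cR
  have pR := Syl.pgroup sR
  generalize T ⊓ 𝐂[u] = R at *
  have sS := TS sT
  have key : ∀ a ∈ S, a ∉ R → u * (a * u * a⁻¹) ∈ center G ∧ Iv s (a * u * a⁻¹) ∧ u ∈ 𝐂[a * u * a⁻¹] := by
    intro a ha aR
    have r1 : R ≤ 𝐂[a * u * a⁻¹] := by
      rw [← conj_cent1, ← conj_eq_of_norm (nR ha)]; exact conj_mono a Ru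
    have i1 : Iv s (a * u * a⁻¹) := by
      have := (hs.mul_cent (Ru (cm _ (inv_mem sS) _ (inv_mem ha)))).conj a
      rwa [show a * (s * (s⁻¹ * a⁻¹ * s⁻¹⁻¹ * a⁻¹⁻¹)) * a⁻¹ = s by group] at this
    refine ⟨B.hyp.central' pR cR.ge (hs.mul i1 (r1 uR)).re (fun r hr => mem_cent1.2 ?_) (nR ha)
      (tw_of_mem hS.pgroup ha) aR (mem_cent1.2 ?_), i1, r1 uR⟩
    · rw [← mul_assoc, mem_cent1.1 (Ru hr), mul_assoc, mem_cent1.1 (r1 hr), ← mul_assoc]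
    · have e1 := mem_cent1.1 (Ru (sq a ha))
      have e2 := mem_cent1.1 (r1 uR)
      calc a * (u * (a * u * a⁻¹)) = a * u * a⁻¹ * (a * a * u) * a⁻¹ := by group
        _ = a * u * a⁻¹ * u * a := by rw [e1]; group
        _ = _ := by rw [← e2]
  obtain ⟨a, ha, aR⟩ := B.b1_out hS (card_sup_sq (nR sS) sn (sq s sS)).le cR
  rw [mem_sup_sq (nR sS) (sq s sS), not_or] at aR
  obtain ⟨k1, k2, k3⟩ := key a ha aR.1
  have k4 := (key _ (mul_mem (inv_mem sS) ha) aR.2).1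
  rw [show s⁻¹ * a * u * (s⁻¹ * a)⁻¹ = s⁻¹ * (a * u * a⁻¹) * s⁻¹⁻¹ by group,
    show s⁻¹ * (a * u * a⁻¹) * s⁻¹⁻¹ = _ from k2.inv_left] at k4
  have := mul_mem k1 k4
  rw [mul_assoc, ← mul_assoc (a * u * a⁻¹), ← mem_cent1.1 k3, mul_assoc, mul_inv_cancel, mul_one] at this
  exact h2 this

/-- `L'` gives `R ≤ S ≤ NW w`, `R = S ⊓ 𝐂[w]` normal in `S` of index `≥ 4`, containing all squares of `S`.
Take `d ∈ S - R`, `e ∈ S - (R ⊔ zpowers d)` (`card_sup_sq`, `mem_sup_sq`) and `Hyp.Fp`. -/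
theorem nozw (hy : RO y) (hR : Syl 2 R 𝐂[y]) (hw : W w) (h : R ≤ 𝐂[w]) : False := by
  have cR := B.hyp.cardS hy hR
  obtain ⟨S, hS, l, nR, sq, -⟩ := B.b1_syl hw hR.pgroup (h.trans (cent_le_NW w)) le_rfl h cR
  obtain ⟨d, hd, dR⟩ := B.b1_out (X := R) hS (by omega) cR
  obtain ⟨e, he, eR⟩ := B.b1_out hS (card_sup_sq (nR hd) dR (sq d hd)).le cR
  exact B.hyp.Fp hy hR (nR hd) (nR he) (sq d hd) (sq e he) (sq _ (mul_mem hd he)) dR (fun k => eR (mem_sup_left k))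
    fun k => eR ((mul_mem_cancel_left (mem_sup_right (mem_zpowers d))).1 (mem_sup_left k))

/-- `Hyp.B'` and `nozw`. -/
theorem nozw' (hy : RO y) (hw : W w) (hc : w ∈ 𝐂[y]) (h1 : Iv t w) (h2 : Iv t y) : False :=
  let ⟨_, a, b⟩ := B.hyp.B' (B.hyp.tw_sq hw.sq) hw.nc hy hc h1 h2
  B.nozw hy a hw b

/-- `dih`, `R2`, `dih_ph`. -/
theorem OT1 (e : x * x = x' * x') (h : Tw (x⁻¹ * x')) : x' ∈ NW x := by
  rw [mem_NW, dih_ph e]; exact inv_mem (B.R2 h (dih e).re)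

/-- `R2` and `nozw'` for the 2-element and the odd part of `h`. -/
theorem OT2 (hi : Iv x h) (hn : ¬ Tw h) {n : ℕ} (tw : Tw (h ^ n)) : h ^ n ∈ center G := by
  by_contra nc
  obtain ⟨i, j, a, b, c, -⟩ := parts h
  refine B.nozw' ⟨fun e => hn ?_, b, (hi.pow j).re⟩ ⟨nc, B.R2 tw (hi.pow n).re, (hi.pow n).re⟩
    (mem_cent1.2 (Commute.pow_pow_self h n j).eq) (hi.pow n) (hi.pow j)
  rw [e, mul_one] at c
  exact c ▸ a

/-- Let `x` invert `v`, `x² ∈ Z`.  `x ∈ O = 𝐎({2}, NW v)`: otherwise `bs'`, `odd_cent`, `nozw'`.  Let `y ≠ 1`.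
If `v² = 1`, `Hyp.A` gives `v ∈ Z`.  Coprime action of `zpowers y` on `O`: `O = C_O(y) ⁅O, y⁆` with
`⁅O, zpowers y⁆ ≤ 𝐂[v]` (`der_NW`), so `x = x₁ c` with `x₁ ∈ 𝐂[y]`, `c ∈ 𝐂[v]`; `x₁ * t` inverts `v` and `y`:
`nozw'`. -/
theorem W0c (hv : W0 v) (hy : y ∈ 𝐂[v]) (ht : t ∈ 𝐂[v]) (ho : Odd (orderOf y)) (h : Iv t y) : y = 1 := by
  have := Fact.mk Nat.prime_two
  obtain ⟨x, x2, hx⟩ := hv.iv
  have xO : x ∈ 𝐎({2}, NW v) := by_contra fun k => by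
    obtain ⟨y', a, b, c⟩ := bs' (B.hyp.tw_sq x2) (hx.mem_NW hv.sq) (center_le_centS _ x2) k
    exact B.nozw' b hv.w (mem_cent1_symm (odd_cent hv.sq a b.odd)) hx c
  by_contra y1
  have yN := zpowers_le.2 (cent_le_NW v hy)
  obtain ⟨k, hk⟩ := IsPGroup.iff_card.1 (pcore_pgroup 2 (NW v))
  rw [← coprime_cent_prod (yN.trans (pcore_nml {2} (NW v)).norm) (by
    rw [hk, Nat.card_zpowers]; exact (Nat.coprime_two_right.2 ho).pow_right k) (.inr (pgroup_sol (pcore_pgroup 2 _))),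
    sup_comm] at xO
  obtain ⟨x₁, h1, c, hc, rfl⟩ := (mem_sup_right_norm (inf_le_left.trans (left_norm_comm _ _))).1 xO
  have c1 : c ∈ 𝐂[v] := der_NW v (comm_le_der (pcore_le _ _) yN hc)
  have i1 := (hx.mul_cent (inv_mem c1)).mul_cent ht
  rw [mul_inv_cancel_right] at i1
  exact B.nozw' ⟨y1, ho, h.re⟩ hv.w (mem_cent1_symm hy) i1 (h.cent_mul (cent_zpowers y ▸ h1.2))

/-- `tri_ex1` with `v ∈ T`, so `v ∈ R`; `chain` gives `v' ∈ R` in `𝒲₀` with `T ≤ NW v'`.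
`O = 𝐎({2}, 𝐂[v'])` is Sylow in `𝐂[v']` (`closed_of`, `W0c`), of order `m`, normalized by `NW v'`
(`cent_nml_NW`), which contains `T` and `y`.  `Hyp.C` gives `O ≤ 𝐂[y]`; `syl_of`, `nozw`. -/
theorem NR (hv : W0 v) (hy : RO y) (h : v ∈ 𝐂[y]) : False := by
  have := Fact.mk Nat.prime_two
  obtain ⟨R, T, hT, vT⟩ := tri_ex1 hy (B.hyp.tw_sq hv.sq) (cent_le_CS y h)
  obtain ⟨v', vR, hv', l⟩ := chain hT.pT hT.le hT.norm (hT.mem vT h) hv
  have s := closed_of fun y hy t ht ho hi => B.W0c hv' hy ht ho hi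
  have n := norm_pcore (cent_nml_NW v').norm {2}
  have c := B.hyp.C hT s.pgroup (n (cent_le_NW _ (mem_cent1_symm (hT.le_cent vR)))) (l.trans n)
  exact B.nozw hy (B.hyp.syl_of hy.re hy.nc s.pgroup c (B.hyp.syl v' hv'.w.re hv'.nc _ s).ge) hv'.w s.le

/-- `closed_NW`, `NR`, `Hyp.L`. -/
theorem W0n (hv : W0 v) : Syl 2 𝐎({2}, NW v) (NW v) ∧ Syl 2 𝐎({2}, NW v) ⊤ :=
  have s := closed_NW hv.sq fun _ hy _ _ ho hi => by_contra fun e => B.NR hv ⟨e, ho, hi.re⟩ (mem_cent1_symm hy)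
  ⟨s, B.hyp.L hv.w s⟩

/-- A real 2-element inverted by an element with central square and centralizing a real odd element is
central (`R2`, `NR`). -/
theorem NR' (x2 : x * x ∈ center G) (hi : Iv x e) (tw : Tw e) (hy : RO y) (h : e ∈ 𝐂[y]) :
    e ∈ center G :=
  by_contra fun k => B.NR ⟨k, B.R2 tw hi.re, x, x2, hi⟩ hy h

end Big

end Cfsg.Lib.RC2
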