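import Cfsg.Agent.Lib.RC2.Bas
import Cfsg.Agent.Lib.RC2.St
import Cfsg.Agent.Lib.Coprime.Nilpotent

/-! # S3860: the lemmas (C) and (L), and the subgroup K -/

set_option autoImplicit false
set_option linter.unusedSectionVars false
set_option linter.unusedVariables false

namespace Cfsg.Lib.RC2

open Subgroup Cfsg.Lib.BG Cfsg.Lib.GW Cfsg.Lib.CT Cfsg.Lib.Transfer
open scoped Cfsg.Lib.Transfer

variable {G : Type*} [Group G] [Finite G] {m : ℕ} {K P R S T X Y : Subgroup G}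
  {a c d e f g h r s t u v w x y z d' f' g' x' : G}

theorem cl_iter (hc : c ∈ 𝐂[u]) (h : u * w * u⁻¹ = w * c) (k : ℕ) : u ^ k * w * (u ^ k)⁻¹ = w * c ^ k := by
  induction k with
  | zero => simp
  | succ k ih =>
    calc u ^ (k + 1) * w * (u ^ (k + 1))⁻¹ = u * (u ^ k * w * (u ^ k)⁻¹) * u⁻¹ := by group
      _ = (u * w * u⁻¹) * (u * c ^ k * u⁻¹) := by rw [ih]; group
      _ = w * c ^ (k + 1) := by rw [h, cent_conj (mem_cent1_symm (pow_mem hc k))]; group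

namespace Hyp
variable (H : Hyp G m)
include H

/-- By `Coprime.p_times_q` (`P := R`, `Q := zpowers y`, `U := X`) it suffices that `y` centralizes
`X₁ = X ⊓ 𝐂(R)` (normalized by `T` and `y`).  For `w ∈ X₁`, `t ∈ T - R`: `c = w⁻¹ * (t w t⁻¹) ∈ X₁` is
inverted by `t` (`iv_comm`, `t * t ∈ R`), so `c ∈ R ≤ 𝐂[y]` (`mem_of_cent`).  So `t⁻¹` and `s = y t y⁻¹`
send each `w ∈ X₁` into `w · (X₁ ⊓ 𝐂[y])`, hence so does `t⁻¹ s = y⁻²`: `y⁻² w y² = w c`, `c ∈ 𝐂[y]`.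
Iterating, `y^{-2k} w y^{2k} = w c^k`, so `c` has odd order, `c = 1`, and `w` centralizes `y²`, `y`. -/
theorem C (hT : Tri y R T) (hX : IsPGroup 2 X) (h1 : y ∈ 𝐍(X)) (h2 : T ≤ 𝐍(X)) : X ≤ 𝐂[y] := by
  have ho := hT.ro.odd
  refine le_cent1_iff.2 (Coprime.p_times_q hT.pR (Nat.coprime_two_right.2 (odd_zpowers ho)) hX
    (by rw [cent_zpowers]; exact hT.le_cent) (hT.le.trans h2) (zpowers_le.2 h1) ?_ (mem_zpowers y))
  have n1 : T ≤ 𝐍(X ⊓ 𝐂(R)) := norm_inf h2 (norm_cent hT.norm)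
  have n2 : y ∈ 𝐍(X ⊓ 𝐂(R)) := zpowers_le.1 (norm_inf (zpowers_le.2 h1)
    (le_norm_of_le (zpowers_le.2 (le_cent1_iff.1 hT.le_cent))))
  have key : ∀ w ∈ X ⊓ 𝐂(R), ∀ t ∈ T, t ∉ R → w⁻¹ * (t * w * t⁻¹) ∈ R := fun w hw t ht tR =>
    have h3 := mul_mem (inv_mem hw) (conj_mem_of_norm (n1 ht) hw)
    H.mem_of_cent hT.pR (H.cardR hT).ge (H.z_le hT)
      (iv_comm (mem_cent1_symm (cent_le_cent1 (hT.mul_mem ht ht tR tR) hw.2))).re (tw_of_mem hX h3.1) h3.2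
  rw [cent_zpowers]
  intro w hw
  obtain ⟨t, ht, tR⟩ := hT.ex
  have h3 := key w hw t⁻¹ (inv_mem ht) (mt inv_mem_iff.1 tR)
  have h4 := key _ (conj_mem_of_norm' n2 hw) t ht tR
  have h5 := (hT.iv ht tR).inv_left
  generalize e3 : w⁻¹ * (t⁻¹ * w * t⁻¹⁻¹) = c at h3
  generalize e4 : (y⁻¹ * w * y)⁻¹ * (t * (y⁻¹ * w * y) * t⁻¹) = d at h4
  have h6 := mul_mem h3 (conj_mem_of_norm' (hT.norm ht) h4)
  have h7 : y⁻¹ * y⁻¹ * w * (y⁻¹ * y⁻¹)⁻¹ = w * (c * (t⁻¹ * d * t)) :=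
    calc _ = (t⁻¹ * y * t⁻¹⁻¹) * y⁻¹ * w * ((t⁻¹ * y * t⁻¹⁻¹) * y⁻¹)⁻¹ := by rw [h5]
      _ = w * (c * (t⁻¹ * (y * d * y⁻¹) * t)) := by rw [← e3, ← e4]; group
      _ = _ := by rw [cent_conj (mem_cent1_symm (hT.le_cent h4))]
  have h8 : c * (t⁻¹ * d * t) ∈ 𝐂[y⁻¹ * y⁻¹] :=
    mem_cent1_symm (mul_mem (inv_mem (mem_cent1_symm (hT.le_cent h6))) (inv_mem (mem_cent1_symm (hT.le_cent h6))))
  have h9 := cl_iter h8 h7 (orderOf y)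
  rw [(Commute.refl y⁻¹).mul_pow, inv_pow, pow_orderOf_eq_one, inv_one, one_mul, one_mul, inv_one, mul_one,
    left_eq_mul] at h9
  rw [tw_eq_one (tw_of_mem hT.pR h6) (ho.of_dvd_nat (orderOf_dvd_of_pow_eq_one h9)), mul_one] at h7
  exact mem_cent1_symm (inv_mem_iff.1 (mem_of_sq_odd (cent_of_conj h7) (by rwa [orderOf_inv])))

/-- `y ∈ C = 𝐂(Q2 G)` by `C`.  `C` is normal and not solvable: otherwise `𝐅(C)` is a 2-group
(`Od C ≤ Od ⊤ = ⊥`), so `𝐅(C) ≤ Q2 G` and `C ≤ C ⊓ 𝐂(𝐅(C)) ≤ 𝐅(C)`.  Take for `K` the last term of the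
derived series of `C` (or: a minimal normal non-solvable subgroup of `G` inside `C`; its derived subgroup is
normal and non-solvable). -/
theorem exK (hy : RO y) : ∃ K : Subgroup G, KK K := by
  obtain ⟨R, T, hT, -⟩ := tri_ex hy IsPGroup.of_bot bot_le
  have nQ : Nml (Q2 G) ⊤ := pcore_nml _ _
  have h1 := le_cent1_iff.1 (H.C hT (pcore_pgroup 2 ⊤) (nQ.norm (mem_top y)) (le_top.trans nQ.norm))
  have nC : Nml 𝐂(Q2 G) ⊤ := ⟨le_top, norm_cent nQ.norm⟩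
  have h2 : ¬ Group.IsSolvable 𝐂(Q2 G) := fun e => by
    have h3 := cent_sub_Fitting e
    rw [Fitting_eq_pcore (p := 2) (eq_bot_mono H.od (nC.pcore_le _))] at h3
    exact hy.ne (tw_eq_one (tw_of_mem (pcore_pgroup 2 _) (h3 ⟨h1, cent_anti (nC.pcore_le _) h1⟩)) hy.odd)
  obtain ⟨K, ⟨k1, k2, k3⟩, hm⟩ := exists_minimal_of_wellFoundedLT
    (fun K : Subgroup G => Nml K ⊤ ∧ K ≤ 𝐂(Q2 G) ∧ ¬ Group.IsSolvable K) ⟨_, nC, le_rfl, h2⟩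
  exact ⟨K, Nml.top_iff.1 k1, le_antisymm (der_le K) (hm ⟨k1.der, (der_le K).trans k2,
    fun e => k3 (Core.isSolvable_of_commutator_le le_rfl e)⟩ (der_le K)), by
      rintro rfl; exact k3 inferInstance, k2⟩

/-- Let `S ≤ S₁` Sylow in `G`; `S = S₁ ⊓ NW w` and `w ∈ S`.  If `¬ S₁ ≤ NW w`, take `g`, `v` from `step`;
`T₁ = S ⊔ zpowers g ≤ NW v` has order `2 |S|`, and `φ_v(T₁) ≤ φ_w(S)`, where `|S| = m |φ_w(S)|`
(`card_NW`; `S ⊓ 𝐂[w]` is Sylow in `𝐂[w]`).  So `|T₁ ⊓ 𝐂[v]| ≥ 2 m`, against `le_m`. -/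
theorem L (hw : W w) (hS : Syl 2 S (NW w)) : Syl 2 S ⊤ := by
  obtain ⟨S₁, h1, h2⟩ := Syl.exists_ge hS.pgroup (le_top (a := S))
  have e := hS.eq_of_le_pgroup (le_inf h2 hS.le) inf_le_right (pgroup_of_le h1.pgroup inf_le_left)
  by_cases h : S₁ ≤ NW w
  · rwa [e, inf_eq_left.2 h]
  exfalso
  have wS : w ∈ S := zpowers_le.1 (hS.ge_of_norm_p' (zpowers_le.2 (self_mem_NW w)) (H.tw_sq hw.sq)
    (zpowers_le.2 (norm_of_le_NW (H.z_le_syl hS (center_le_NW w)) hS.le)))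
  obtain ⟨g, g1, g2, g3, g4, hv, h3, h4, h5, s, hs, h6⟩ := step h1.pgroup (h2 wS) hw.sq h
  rw [← e] at g4 h3 h5 hs
  generalize w * (g * w * g⁻¹)⁻¹ = v at *
  have g5 : g * g ∈ S := e ▸ mem_inf.2 ⟨mul_mem g1 g1, g3⟩
  have h7 : S ⊔ zpowers g ≤ NW v := sup_le h3 (zpowers_le.2 h4)
  have k1 : ∀ a ∈ S, ph a w ∈ (S.subgroupOf (NW w)).map (phH w) := fun a ha => ⟨⟨a, hS.le ha⟩, ha, rfl⟩
  have k2 : ∀ a ∈ S, ph a v ∈ (S.subgroupOf (NW w)).map (phH w) := fun a ha =>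
    h5 a ha ▸ mul_mem (k1 a ha) (k1 _ (conj_mem_of_norm' g4 ha))
  have h8 : ((S ⊔ zpowers g).subgroupOf (NW v)).map (phH v) ≤ (S.subgroupOf (NW w)).map (phH w) := by
    rintro _ ⟨⟨a, av⟩, ha, rfl⟩
    rw [phH_apply]
    rcases (mem_sup_sq g4 g5).1 ha with ha | ha
    · exact k2 a ha
    · have := mul_mem (h6 ▸ k1 s hs) (k2 _ ha)
      rwa [← ph_mul h4 (h3 ha), mul_inv_cancel_left] at this
  have c1 := card_NW h7
  have c2 := card_NW hS.le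
  rw [H.syl w hw.re hw.nc _ (hS.inf_nml (cent_nml_NW w))] at c2
  rw [card_sup_sq g4 (fun e => g2 (hS.le e)) g5] at c1
  have c3 := Nat.mul_le_mul (H.le_m hv.w.re hv.nc (pgroup_of_le (pgroup_sup_tw hS.pgroup g4
    (tw_of_mem h1.pgroup g1)) inf_le_left) inf_le_right) (card_le_of_le h8)
  have := Nat.card_pos (α := S)
  omega

theorem L' (hw : W w) (hX : IsPGroup 2 X) (h : X ≤ NW w) :
    ∃ S, Syl 2 S ⊤ ∧ X ≤ S ∧ S ≤ NW w ∧ Nat.card ↥(S ⊓ 𝐂[w]) = m :=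
  let ⟨S, hS, e⟩ := Syl.exists_ge hX h
  ⟨S, H.L hw hS, e, hS.le, H.syl w hw.re hw.nc _ (hS.inf_nml (cent_nml_NW w))⟩

end Hyp

end Cfsg.Lib.RC2
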