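import Cfsg.Agent.Lib.CT.Base

/-!
# Real classes with the same 2-part (S3860): definitions

`Z = center G`, `Q = Q2 G = O_2(G)`.  Conjugation is `g * x * g⁻¹`.
-/

set_option autoImplicit false
set_option linter.unusedSectionVars false

namespace Cfsg.Lib.RC2

open Subgroup Cfsg.Lib.BG Cfsg.Lib.GW Cfsg.Lib.CT Cfsg.Lib.Transfer
open scoped Cfsg.Lib.Transfer

variable {G : Type*} [Group G]

/-- `t` inverts `x`. -/
def Iv (t x : G) : Prop := t * x * t⁻¹ = x⁻¹

/-- `x` is real. -/
def Re (x : G) : Prop := ∃ t, Iv t x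

/-- `y ≠ 1` is real of odd order. -/
structure RO (y : G) : Prop where
  ne : y ≠ 1
  odd : Odd (orderOf y)
  re : Re y

/-- The centralizers of the non-central real elements have Sylow 2-subgroups of order `m`. -/
def Hyp0 (G : Type*) [Group G] (m : ℕ) : Prop :=
  ∀ x : G, Re x → x ∉ center G → ∀ P : Subgroup G, Syl 2 P 𝐂[x] → Nat.card P = m

/-- The hypothesis, with `O(G) = 1`. -/
structure Hyp (G : Type*) [Group G] (m : ℕ) : Prop where
  syl : Hyp0 G m
  od : Od (⊤ : Subgroup G) = ⊥

/-- The case of real classes of 2-part at least 4. -/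
structure Big (G : Type*) [Group G] (m : ℕ) : Prop where
  hyp : Hyp G m
  big : ∀ S : Subgroup G, Syl 2 S ⊤ → 4 * m ≤ Nat.card S

/-- The case of real classes of 2-part 2. -/
structure One (G : Type*) [Group G] (m : ℕ) : Prop where
  hyp : Hyp G m
  one : ∀ S : Subgroup G, Syl 2 S ⊤ → Nat.card S = 2 * m

/-- The extended centralizer. -/
def CS (y : G) : Subgroup G where
  carrier := {g | g * y * g⁻¹ = y ∨ Iv g y}
  one_mem' := .inl (by simp)
  mul_mem' := by
    have k : ∀ a b : G, a * b * y * (a * b)⁻¹ = a * (b * y * b⁻¹) * a⁻¹ := fun a b => by group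
    have k' : ∀ a : G, a * y⁻¹ * a⁻¹ = (a * y * a⁻¹)⁻¹ := fun a => by group
    rintro a b (ha | ha) (hb | hb)
    · exact .inl (by rw [k, hb, ha])
    · exact .inr (by unfold Iv at *; rw [k, hb, k', ha])
    · exact .inr (by unfold Iv at *; rw [k, hb, ha])
    · exact .inl (by unfold Iv at *; rw [k, hb, k', ha, inv_inv])
  inv_mem' := by
    rintro a (ha | ha)
    · exact .inl (by conv_lhs => rw [← ha]
                     group)
    · refine .inr ?_
      unfold Iv at *
      have : y = (a * y * a⁻¹)⁻¹ := by rw [ha, inv_inv]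
      conv_lhs => rw [this]
      group

/-- The commutator `ph g w = [g, w]`, so that `g * w * g⁻¹ = ph g w * w`. -/
def ph (g w : G) : G := g * w * g⁻¹ * w⁻¹

theorem conj_eq_ph (g w : G) : g * w * g⁻¹ = ph g w * w := by unfold ph; group

theorem ph_mul' {h w : G} (g : G) (hh : ph h w ∈ center G) : ph (g * h) w = ph h w * ph g w := by
  have := mem_center_iff.1 hh g
  calc ph (g * h) w = g * ph h w * (w * g⁻¹ * w⁻¹) := by unfold ph; group
    _ = ph h w * g * (w * g⁻¹ * w⁻¹) := by rw [this]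
    _ = _ := by unfold ph; group

theorem ph_inv' {g w : G} (hg : ph g w ∈ center G) : ph g⁻¹ w = (ph g w)⁻¹ := by
  have := ph_mul' g⁻¹ hg
  rw [inv_mul_cancel, show ph (1 : G) w = 1 by simp [ph]] at this
  exact eq_inv_of_mul_eq_one_right this.symm

/-- `N_w`: the elements commuting with `w` modulo the centre. -/
def NW (w : G) : Subgroup G where
  carrier := {g | ph g w ∈ center G}
  one_mem' := by simp [ph]
  mul_mem' := fun {a b} ha hb => by
    show ph (a * b) w ∈ center G
    rw [ph_mul' a hb]; exact mul_mem hb ha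
  inv_mem' := fun {a} ha => by
    show ph a⁻¹ w ∈ center G
    rw [ph_inv' ha]; exact inv_mem ha

/-- The homomorphism `φ_w : N_w → Z(G)`, with kernel `C(w)`. -/
def phH (w : G) : NW w →* G where
  toFun g := ph g w
  map_one' := by simp [ph]
  map_mul' a b := by
    rw [coe_mul, ph_mul' _ b.2]; exact (mem_center_iff.1 b.2 _).symm

/-- `T` is a Sylow 2-subgroup of the extended centralizer of `y`, and `R = C_T(y)`. -/
structure Tri (y : G) (R T : Subgroup G) : Prop where
  ro : RO y
  syl : Syl 2 T (CS y)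
  eq : R = T ⊓ 𝐂[y]

/-- The set `𝒲`. -/
structure W (w : G) : Prop where
  nc : w ∉ center G
  sq : w * w ∈ center G
  re : Re w

/-- The set `𝒲₀`. -/
structure W0 (w : G) : Prop where
  nc : w ∉ center G
  sq : w * w ∈ center G
  iv : ∃ x, x * x ∈ center G ∧ Iv x w

theorem W0.w {w : G} (h : W0 w) : W w := ⟨h.nc, h.sq, h.iv.imp fun _ e => e.2⟩

/-- `O_2(G)`. -/
abbrev Q2 (G : Type*) [Group G] : Subgroup G := 𝐎({2}, (⊤ : Subgroup G))

/-- A non-trivial perfect normal subgroup centralizing `O_2(G)`. -/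
structure KK (K : Subgroup G) : Prop where
  nml : K.Normal
  perf : ⁅K, K⁆ = K
  ne : K ≠ ⊥
  cent : K ≤ 𝐂(Q2 G)

/-- `x` is an involution of `K` modulo `O_2(G)`. -/
structure Iu (K : Subgroup G) (x : G) : Prop where
  mem : x ∈ K
  nq : x ∉ Q2 G
  sq : x * x ∈ Q2 G

/-- The configuration studied in the case `One`. -/
structure Cf (K : Subgroup G) (y : G) (R S : Subgroup G) (x v : G) : Prop where
  k : KK K
  tri : Tri y R S
  yK : y ∈ K
  xS : x ∈ S
  xR : x ∉ R
  xK : x ∈ K
  xQ : x ∉ Q2 G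
  xW : W x
  vR : v ∈ R
  vc : ∃ g ∈ K, v = g * x * g⁻¹

theorem mem_CS {g y : G} : g ∈ CS y ↔ g * y * g⁻¹ = y ∨ Iv g y := Iff.rfl
theorem mem_NW {g w : G} : g ∈ NW w ↔ ph g w ∈ center G := Iff.rfl
theorem phH_apply {w : G} (g : NW w) : phH w g = ph (g : G) w := rfl

end Cfsg.Lib.RC2
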