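import Cfsg.Agent.Lib.RC2.Def

/-! # S3860: elementary identities -/

set_option autoImplicit false
set_option linter.unusedSectionVars false
set_option linter.unusedVariables false

namespace Cfsg.Lib.RC2

open Subgroup Cfsg.Lib.BG Cfsg.Lib.GW Cfsg.Lib.CT Cfsg.Lib.Transfer
open scoped Cfsg.Lib.Transfer

variable {G : Type*} [Group G] [Finite G] {m : ℕ} {H K P R S T X Y : Subgroup G}
  {a c d e f g h r s t u v w x y z d' f' g' x' : G}

theorem cent_conj (h : g ∈ 𝐂[y]) : g * y * g⁻¹ = y := by rw [mem_cent1.1 h, mul_inv_cancel_right]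
theorem cent_of_conj (h : g * y * g⁻¹ = y) : g ∈ 𝐂[y] := mem_cent1.2 (mul_inv_eq_iff_eq_mul.1 h)
theorem cent_le_CS (y : G) : 𝐂[y] ≤ CS y := fun _ h => .inl (cent_conj h)
theorem conj_CS (g y : G) : g ⋆ CS y = CS (g * y * g⁻¹) := by
  ext a
  rw [mem_conj, mem_CS, mem_CS, Iv, Iv, ← (MulAut.conj g).injective.eq_iff,
    ← (MulAut.conj g).injective.eq_iff (b := y⁻¹)]
  simp only [MulAut.conj_apply, mul_assoc, mul_inv_rev, inv_inv, mul_inv_cancel_left,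
    mul_inv_cancel, mul_one]
theorem cent_nml_CS (y : G) : Nml 𝐂[y] (CS y) := ⟨cent_le_CS y, fun g hg => norm_of_conj_eq (by
  rw [conj_cent1]
  rcases hg with h | h
  · rw [h]
  · rw [h, cent1_inv])⟩
theorem center_le_cent (x : G) : center G ≤ 𝐂[x] := fun _ h => mem_cent1.2 (mem_center_iff.1 h x).symm
theorem center_le_centS (X : Subgroup G) : center G ≤ 𝐂(X) := fun _ h =>
  mem_cent.2 fun a _ => mem_center_iff.1 h a
theorem conj_center (hz : z ∈ center G) (g : G) : g * z * g⁻¹ = z := by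
  rw [mem_center_iff.1 hz g, mul_inv_cancel_right]
theorem conj_mem_center : g * z * g⁻¹ ∈ center G ↔ z ∈ center G :=
  ⟨fun h => by
    have := conj_center h g⁻¹
    rw [show g⁻¹ * (g * z * g⁻¹) * g⁻¹⁻¹ = z by group] at this
    rwa [← this] at h, fun h => by rwa [conj_center h]⟩

theorem ph_eq_one : ph g w = 1 ↔ g ∈ 𝐂[w] := by
  rw [ph, mul_inv_eq_one]; exact ⟨cent_of_conj, cent_conj⟩
theorem ph_swap (g w : G) : ph w g = (ph g w)⁻¹ := by unfold ph; group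
theorem ph_conj (a g w : G) : ph (a * g * a⁻¹) (a * w * a⁻¹) = a * ph g w * a⁻¹ := by unfold ph; group
theorem ph_mul (hg : g ∈ NW w) (hh : h ∈ NW w) : ph (g * h) w = ph g w * ph h w := by
  rw [ph_mul' g hh]; exact (mem_center_iff.1 hh _).symm
theorem ph_mul_right (hu : g ∈ NW u) (hw : g ∈ NW w) : ph g (u * w) = ph g u * ph g w := by
  calc ph g (u * w) = ph g u * (u * ph g w * u⁻¹) := by unfold ph; group
    _ = _ := by rw [conj_center hw]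
theorem ph_inv_right (hw : g ∈ NW w) : ph g w⁻¹ = (ph g w)⁻¹ := by
  calc ph g w⁻¹ = w⁻¹ * (ph g w)⁻¹ * w⁻¹⁻¹ := by unfold ph; group
    _ = _ := conj_center (inv_mem hw) _
theorem cent_le_NW (w : G) : 𝐂[w] ≤ NW w := fun g h => by
  rw [mem_NW, ph_eq_one.2 h]; exact one_mem _
theorem center_le_NW (w : G) : center G ≤ NW w := (center_le_cent w).trans (cent_le_NW w)
theorem self_mem_NW (w : G) : w ∈ NW w := cent_le_NW w (self_mem_cent1 w)
theorem NW_symm (h : g ∈ NW w) : w ∈ NW g := by rw [mem_NW, ph_swap]; exact inv_mem h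
theorem conj_NW (g w : G) : g ⋆ NW w = NW (g * w * g⁻¹) := by
  ext a
  rw [mem_conj, mem_NW, mem_NW, ← conj_mem_center (g := g), ← ph_conj,
    show g * (g⁻¹ * a * g) * g⁻¹ = a by group]
theorem NW_mul_center (hz : z ∈ center G) (w : G) : NW (z * w) = NW w := by
  ext a
  exact ⟨fun h => NW_symm (by simpa using mul_mem (inv_mem (center_le_NW a hz)) (NW_symm h)),
    fun h => NW_symm (mul_mem (center_le_NW a hz) (NW_symm h))⟩
theorem phH_ker (w : G) : (phH w).ker = 𝐂[w].subgroupOf (NW w) := by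
  ext a; rw [MonoidHom.mem_ker, phH_apply, ph_eq_one, mem_subgroupOf]
theorem ph_comm (hg : g ∈ NW w) (hh : h ∈ NW w) : g * h * g⁻¹ * h⁻¹ ∈ 𝐂[w] := by
  rw [← ph_eq_one, ph_mul (mul_mem (mul_mem hg hh) (inv_mem hg)) (inv_mem hh),
    ph_mul (mul_mem hg hh) (inv_mem hg), ph_mul hg hh, ph_inv' hg, ph_inv' hh, conj_center hh,
    mul_inv_cancel]
theorem cent_nml_NW (w : G) : Nml 𝐂[w] (NW w) := ⟨cent_le_NW w, le_norm_iff.2 fun a ha c hc => by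
  simpa using mul_mem (ph_comm ha (cent_le_NW w hc)) hc⟩
theorem der_NW (w : G) : ⁅NW w, NW w⁆ ≤ 𝐂[w] := comm_le_iff.2 fun _ ha _ hb => ph_comm ha hb
/-- `g w² g⁻¹ = w²`. -/
theorem ph_sq (hw : w * w ∈ center G) (hg : g ∈ NW w) : ph g w * ph g w = 1 := by
  rw [← ph_mul_right hg hg, ph, conj_center hw, mul_inv_cancel]
theorem sq_cent (hw : w * w ∈ center G) (hg : g ∈ NW w) : g * g ∈ 𝐂[w] := by
  rw [← ph_eq_one, ph_mul hg hg, ph_sq hw hg]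
theorem mem_of_sq_odd (h : g * g ∈ X) (ho : Odd (orderOf g)) : g ∈ X := by
  obtain ⟨k, e⟩ := ho
  have : g = ((g * g) ^ k)⁻¹ := by
    rw [eq_inv_iff_mul_eq_one, ← pow_two, ← pow_mul, ← pow_succ', ← e, pow_orderOf_eq_one]
  rw [this]; exact inv_mem (pow_mem h k)
theorem odd_cent (hw : w * w ∈ center G) (hg : g ∈ NW w) (ho : Odd (orderOf g)) : g ∈ 𝐂[w] :=
  mem_of_sq_odd (sq_cent hw hg) ho
/-- If `Z ≤ R ≤ N_w` then `w` normalizes `R`. -/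
theorem norm_of_le_NW (hZ : center G ≤ R) (h : R ≤ NW w) : w ∈ 𝐍(R) :=
  mem_normalizer_of_conj_le (conj_le_iff.2 fun r hr => by
    rw [conj_eq_ph]; exact mul_mem (hZ (NW_symm (h hr))) hr)
/-- Counting: `|X| = |C_X(w)| · |φ_w(X)|`. -/
theorem card_NW (h : X ≤ NW w) :
    Nat.card X = Nat.card ↥(X ⊓ 𝐂[w]) * Nat.card ((X.subgroupOf (NW w)).map (phH w)) := by
  rw [← relIndex_ker, phH_ker, relIndex_subgroupOf h, ← inf_relIndex_left,
    BG.card_mul_relIndex inf_le_left]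

namespace Iv
theorem mem_CS (h : Iv t x) : t ∈ CS x := .inr h
theorem re (h : Iv t x) : Re x := ⟨t, h⟩
theorem ph_eq (h : Iv t w) : ph t w = (w * w)⁻¹ := by rw [ph, h, mul_inv_rev]
theorem mem_NW (h : Iv t w) (hw : w * w ∈ center G) : t ∈ NW w := by
  rw [RC2.mem_NW, h.ph_eq]; exact inv_mem hw
theorem of_ph (h : ph t w = (w * w)⁻¹) : Iv t w := by rw [Iv, conj_eq_ph, h]; group
theorem zpow (h : Iv t x) (n : ℤ) : Iv t (x ^ n) := by rw [Iv, ← conj_zpow, h, inv_zpow]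
theorem pow (h : Iv t x) (n : ℕ) : Iv t (x ^ n) := by rw [Iv, ← conj_pow, h, inv_pow]
theorem inv (h : Iv t x) : Iv t x⁻¹ := by simpa using h.zpow (-1)
theorem inv_left (h : Iv t x) : Iv t⁻¹ x := by
  have : x = (t * x * t⁻¹)⁻¹ := by rw [h, inv_inv]
  unfold Iv
  conv_lhs => rw [this]
  group
theorem mul (h : Iv t x) (h' : Iv t y) (hc : x ∈ 𝐂[y]) : Iv t (x * y) := by
  rw [Iv, ← conj_mul, h, h', mem_cent1.1 hc, mul_inv_rev]
theorem mul_cent (h : Iv t x) (hc : c ∈ 𝐂[x]) : Iv (t * c) x := by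
  rw [Iv, ← h, show t * c * x * (t * c)⁻¹ = t * (c * x * c⁻¹) * t⁻¹ by group, cent_conj hc]
theorem cent_mul (h : Iv t x) (hc : c ∈ 𝐂[x]) : Iv (c * t) x := by
  rw [Iv, show c * t * x * (c * t)⁻¹ = c * (t * x * t⁻¹) * c⁻¹ by group, h]
  exact cent_conj (cent1_inv x ▸ hc)
theorem mul_iv (h : Iv t x) (h' : Iv s x) : t * s ∈ 𝐂[x] := cent_of_conj (by
  rw [show t * s * x * (t * s)⁻¹ = t * (s * x * s⁻¹) * t⁻¹ by group, h', h.inv, inv_inv])
theorem odd_pow (h : Iv t x) {n : ℕ} (hn : Odd n) : Iv (t ^ n) x := by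
  obtain ⟨k, rfl⟩ := hn
  rw [pow_succ, pow_mul, pow_two]
  exact h.cent_mul (pow_mem (h.mul_iv h) k)
theorem conj (h : Iv t x) (g : G) : Iv (g * t * g⁻¹) (g * x * g⁻¹) := by
  rw [Iv, show g * t * g⁻¹ * (g * x * g⁻¹) * (g * t * g⁻¹)⁻¹ = g * (t * x * t⁻¹) * g⁻¹ by group, h]
  group
theorem of_sq (h : x * x = 1) (hc : t ∈ 𝐂[x]) : Iv t x := by
  rw [Iv, cent_conj hc, eq_inv_iff_mul_eq_one, h]
theorem sq_eq_one (h : Iv t x) (hc : t ∈ 𝐂[x]) : x * x = 1 := by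
  rwa [Iv, cent_conj hc, eq_inv_iff_mul_eq_one] at h
theorem eq_one (h : Iv t x) (hc : t ∈ 𝐂[x]) (ho : Odd (orderOf x)) : x = 1 :=
  mem_bot.1 (mem_of_sq_odd (mem_bot.2 (h.sq_eq_one hc)) ho)
theorem norm (h : Iv t x) : t ∈ 𝐍(zpowers x) := norm_of_conj_eq (by rw [conj_zpowers, h, zpowers_inv])
/-- An odd power of `t` is a 2-element (`exists_odd_pow`). -/
theorem exists_tw (h : Iv t x) : ∃ n : ℕ, Odd n ∧ Tw (t ^ n) ∧ Iv (t ^ n) x :=
  let ⟨n, hn, tw⟩ := exists_odd_pow t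
  ⟨n, hn, tw, h.odd_pow hn⟩
theorem map {G' : Type*} [Group G'] (h : Iv t x) (φ : G →* G') : Iv (φ t) (φ x) := by
  rw [Iv, ← map_inv, ← map_mul, ← map_mul, h, map_inv]
end Iv

theorem Re.conj (h : Re x) (g : G) : Re (g * x * g⁻¹) := let ⟨_, e⟩ := h; (e.conj g).re
theorem Re.pow (h : Re x) (n : ℕ) : Re (x ^ n) := let ⟨_, e⟩ := h; (e.pow n).re
theorem re_of_sq (h : x * x = 1) : Re x := (Iv.of_sq h (one_mem _)).re
theorem re_iff : Re x ↔ IsConj x x⁻¹ := isConj_iff.symm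
theorem RO.conj (h : RO y) (g : G) : RO (g * y * g⁻¹) :=
  ⟨fun e => h.ne (by simpa using e), by rw [Inv.orderOf_conj']; exact h.odd, h.re.conj g⟩
theorem RO.nc (h : RO y) : y ∉ center G := fun hz =>
  let ⟨t, e⟩ := h.re
  h.ne (e.eq_one (mem_cent1_symm (center_le_cent t hz)) h.odd)
theorem conj_sq (h : x * x ∈ center G) (g : G) : g * x * g⁻¹ * (g * x * g⁻¹) = x * x := by
  rw [conj_mul, conj_center h]
theorem W.conj (h : W w) (g : G) : W (g * w * g⁻¹) :=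
  ⟨fun e => h.nc (conj_mem_center.1 e), (conj_sq h.sq g).symm ▸ h.sq, h.re.conj g⟩
theorem W0.conj (h : W0 w) (g : G) : W0 (g * w * g⁻¹) :=
  let ⟨x, h1, h2⟩ := h.iv
  ⟨(h.w.conj g).nc, (h.w.conj g).sq, g * x * g⁻¹, (conj_sq h1 g).symm ▸ h1, h2.conj g⟩

/-- The dihedral relation. -/
theorem dih (h : x * x = x' * x') : Iv x (x⁻¹ * x') := by
  calc x * (x⁻¹ * x') * x⁻¹ = x'⁻¹ * (x' * x') * x⁻¹ := by group
    _ = _ := by rw [← h]; group
theorem dih_ph (h : x * x = x' * x') : ph x' x = (x⁻¹ * x' * (x⁻¹ * x'))⁻¹ := by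
  have e' := (dih h).inv
  calc ph x' x = x * (x⁻¹ * x') * x⁻¹ * (x * (x * (x⁻¹ * x')⁻¹ * x⁻¹) * x⁻¹) := by unfold ph; group
    _ = _ := by rw [e', inv_inv, dih h]; group
theorem iv_comm (h : x * x ∈ 𝐂[c]) : Iv x (c⁻¹ * (x * c * x⁻¹)) := by
  calc x * (c⁻¹ * (x * c * x⁻¹)) * x⁻¹ = (x * c * x⁻¹)⁻¹ * (x * x * c * (x * x)⁻¹) := by group
    _ = _ := by rw [cent_conj h]; group
theorem iv_comm' (h : x * x ∈ 𝐂[c]) : Iv x (ph x c) := by
  calc x * ph x c * x⁻¹ = x * x * c * (x * x)⁻¹ * (x * c * x⁻¹)⁻¹ := by unfold ph; group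
    _ = _ := by rw [cent_conj h]; unfold ph; group

theorem tw_iff : Tw x ↔ PiElt {2} x := PiGrp.p_iff.symm.trans PiElt.zpowers_iff

/-- The 2-part `h ^ i` and the odd part `h ^ j` (`j` even) of an element. -/
theorem parts (h : G) : ∃ i j : ℕ, Tw (h ^ i) ∧ Odd (orderOf (h ^ j)) ∧ h ^ i * h ^ j = h ∧ Even j := by
  obtain ⟨a, b, ha, hb, ⟨i, rfl⟩, ⟨j, rfl⟩, e⟩ : ∃ a b : G, Tw a ∧ Odd (orderOf b) ∧ (∃ i : ℕ, h ^ i = a) ∧
      (∃ j : ℕ, h ^ j = b) ∧ a * b = h := by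
    obtain ⟨a, ha, b, hb, h1, h2, h3, -⟩ := exists_pi_decomp ({2} : Set ℕ) h
    exact ⟨a, b, tw_iff.2 h1, piElt_odd_iff.1 h2, (mem_powers_iff_mem_zpowers.2 ha :),
      (mem_powers_iff_mem_zpowers.2 hb :), h3.symm⟩
  obtain ⟨k, hk⟩ := hb
  have : h ^ (j * (2 * (k + 1))) = h ^ j := by
    rw [pow_mul, show 2 * (k + 1) = 2 * k + 1 + 1 by ring, ← hk, pow_succ, pow_orderOf_eq_one, one_mul]
  exact ⟨i, j * (2 * (k + 1)), ha, this ▸ ⟨k, hk⟩, this ▸ e, ⟨j * (k + 1), by ring⟩⟩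
theorem cent_mul_parts (hu : Tw u) (hy : Odd (orderOf y)) (hc : u ∈ 𝐂[y]) :
    𝐂[u * y] = 𝐂[u] ⊓ 𝐂[y] ∧ u ∈ zpowers (u * y) ∧ y ∈ zpowers (u * y) := by
  have := pi_decomp_mem (tw_iff.1 hu) (piElt_odd_iff.2 hy) (mem_cent1.1 hc)
  refine ⟨le_antisymm (le_inf ?_ ?_) fun g hg => mul_mem_cent1 hg.1 hg.2 rfl, this⟩
  · rw [← cent_zpowers]; exact cent_le_cent1 this.1
  · rw [← cent_zpowers]; exact cent_le_cent1 this.2
/-- Commuting `y`, `z` with `z * y`, `y` of odd order and `z` a 2-element. -/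
theorem tw_eq_one_of_mul (hz : Tw z) (hc : z ∈ 𝐂[y]) (hy : Odd (orderOf y)) (h : Odd (orderOf (z * y))) :
    z = 1 :=
  tw_eq_one hz (h.of_dvd_nat (orderOf_dvd_of_mem_zpowers (cent_mul_parts hz hy hc).2.1))
/-- The last power of a 2-element outside a subgroup. -/
theorem last_pow (hu : Tw u) (h : u ∉ X) : ∃ k : ℕ, u ^ 2 ^ k ∉ X ∧ u ^ 2 ^ k * u ^ 2 ^ k ∈ X := by
  obtain ⟨n, hn⟩ := tw_pow hu
  by_contra! hc
  have : ∀ k, u ^ 2 ^ k ∉ X := fun k => by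
    induction k with
    | zero => simpa using h
    | succ k ih => rw [pow_succ, pow_mul, pow_two]; exact hc k ih
  exact this n (hn ▸ one_mem _)
/-- A proper subgroup of a 2-group has index 2 in a larger subgroup. -/
theorem exists_norm_sq (hT : IsPGroup 2 T) (h : X < T) : ∃ g ∈ T, g ∉ X ∧ g * g ∈ X ∧ g ∈ 𝐍(X) := by
  obtain ⟨a, ha, aX⟩ := SetLike.exists_of_lt (lt_inf_normalizer_of_lt hT h)
  obtain ⟨k, h1, h2⟩ := last_pow (tw_of_mem hT ha.1) aX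
  exact ⟨_, pow_mem ha.1 _, h1, h2, pow_mem ha.2 _⟩
theorem mem_sup_sq (hg : g ∈ 𝐍(X)) (h2 : g * g ∈ X) : a ∈ X ⊔ zpowers g ↔ a ∈ X ∨ g⁻¹ * a ∈ X := by
  refine ⟨fun h => ?_, ?_⟩
  · obtain ⟨_, ⟨k, rfl⟩, n, hn, rfl⟩ := (mem_sup_right_norm (zp_norm.2 hg)).1 (sup_comm X _ ▸ h)
    obtain ⟨j, rfl | rfl⟩ := Int.even_or_odd' k
    · exact .inl (mul_mem (by simp only [zpow_mul, zpow_two]; exact zpow_mem h2 j) hn)
    · refine .inr ?_
      beta_reduce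
      rw [show g⁻¹ * (g ^ (2 * j + 1) * n) = (g ^ (2 : ℤ)) ^ j * n by group, zpow_two]
      exact mul_mem (zpow_mem h2 j) hn
  · rintro (h | h)
    · exact mem_sup_left h
    · simpa using mul_mem (mem_sup_right (mem_zpowers g)) (mem_sup_left (T := zpowers g) h)
theorem card_sup_sq (hg : g ∈ 𝐍(X)) (h : g ∉ X) (h2 : g * g ∈ X) :
    Nat.card ↥(X ⊔ zpowers g) = 2 * Nat.card X := by
  rw [← BG.card_mul_relIndex (le_sup_left : X ≤ X ⊔ zpowers g), mul_comm]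
  congr 1
  refine index_eq_two_iff'.2 ⟨⟨g⁻¹, inv_mem (mem_sup_right (mem_zpowers g))⟩, fun b => ?_⟩
  simp only [mem_subgroupOf, coe_mul]
  rcases (mem_sup_sq hg h2).1 b.2 with e | e
  · exact .inr ⟨e, fun e' => h (by simpa using inv_mem (mul_mem e' (inv_mem e)))⟩
  · exact .inl ⟨e, fun e' => h (by simpa using inv_mem (mul_mem e (inv_mem e')))⟩
theorem pgroup_sup_tw (hX : IsPGroup 2 X) (hg : g ∈ 𝐍(X)) (h : Tw g) : IsPGroup 2 ↥(X ⊔ zpowers g) :=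
  pgroup_sup hX h (zp_norm.2 hg)
theorem tw_of_sq (hX : IsPGroup 2 X) (h : g * g ∈ X) : Tw g := by
  obtain ⟨k, e⟩ := tw_pow (tw_of_mem hX h)
  exact Inv.isPGroup_zpowers (k := k + 1) (by rw [pow_succ', pow_mul, pow_two, e])
/-- A 2-element normalizing a non-trivial 2-group centralizes an involution in it. -/
theorem exists_inv_fixed (hX : IsPGroup 2 X) (h1 : X ≠ ⊥) (hg : g ∈ 𝐍(X)) (h : Tw g) :
    ∃ b ∈ X, b ≠ 1 ∧ b * b = 1 ∧ b ∈ 𝐂[g] := by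
  obtain ⟨a, ha, a1⟩ := exists_ne_one (nil_meet_center (pgroup_nil (pgroup_sup_tw hX hg h)) le_sup_left
    (sup_le_norm_left (zp_norm.2 hg)) h1)
  obtain ⟨k, h1, h2⟩ := last_pow (X := ⊥) (tw_of_mem hX ha.1) (by simpa using a1)
  exact ⟨_, pow_mem ha.1 _, by simpa using h1, mem_bot.1 h2,
    pow_mem (cent_le_cent1 (mem_sup_right (mem_zpowers g)) ha.2) _⟩

end Cfsg.Lib.RC2
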