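import Cfsg.Agent.Lib.RC2.CL

/-! # S3860: the case of 2-part 2, part 1 -/

set_option autoImplicit false
set_option linter.unusedSectionVars false
set_option linter.unusedVariables false

namespace Cfsg.Lib.RC2

open Subgroup Cfsg.Lib.BG Cfsg.Lib.GW Cfsg.Lib.CT Cfsg.Lib.Transfer
open scoped Cfsg.Lib.Transfer

variable {G : Type*} [Group G] [Finite G] {m : ℕ} {H K P R S T X Y : Subgroup G}
  {a c d e f g h r s t u v w x y z d' f' g' x' : G}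

namespace One
variable (O : One G m)
include O

theorem sylT (hT : Tri y R S) : Syl 2 S ⊤ := by
  obtain ⟨P, hP, -⟩ := Syl.exists_ge hT.pT (le_top (a := S))
  exact hP.of_card_le' hT.pT le_top (by rw [O.one P hP, O.hyp.cardT hT])

/-- `L'` gives a Sylow `S ≤ NW w` of order `2 m` with `|S ⊓ 𝐂[w]| = m`, so `|φ_w(S)| = 2` (`card_NW`), and
`φ_w(NW w) = φ_w(S)`: write `g = g^i * g^j` (`parts`, `odd_cent`) and conjugate `g^i` into `S` inside `NW w`. -/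
theorem O1 (hw : W w) (hg : g ∈ NW w) (hg' : g' ∈ NW w) (h : g ∉ 𝐂[w]) (h' : g' ∉ 𝐂[w]) :
    ph g w = ph g' w := by
  obtain ⟨S, hS, -, l, c⟩ := O.hyp.L' hw IsPGroup.of_bot bot_le
  have c2 := card_NW l
  have hp : 0 < Nat.card S := Nat.card_pos
  rw [O.one S hS] at hp
  rw [O.one S hS, c, mul_comm] at c2
  have c3 := (Nat.eq_of_mul_eq_mul_left (by omega) c2).symm
  have k : ∀ g ∈ NW w, ph g w ∈ (S.subgroupOf (NW w)).map (phH w) := fun g hg => by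
    obtain ⟨i, j, ti, oj, e, -⟩ := parts g
    obtain ⟨k, hk, kS⟩ := syl_conj1 (hS.of_le l le_top) ti (pow_mem hg i)
    refine ⟨⟨k, hk⟩ * ⟨_, pow_mem hg i⟩ * ⟨k, hk⟩⁻¹, kS, ?_⟩
    rw [map_mul, map_mul, map_inv, phH_apply ⟨_, pow_mem hg i⟩, conj_center (pow_mem hg i)]
    conv_rhs => rw [← e, ph_mul (pow_mem hg i) (pow_mem hg j), ph_eq_one.2 (odd_cent hw.sq (pow_mem hg j) oj),
      mul_one]
  obtain ⟨z, -, hz⟩ := (Nat.card_eq_two_iff' 1).1 c3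
  exact congrArg Subtype.val ((hz ⟨_, k g hg⟩ fun e => h (ph_eq_one.1 (congrArg Subtype.val e))).trans
    (hz ⟨_, k g' hg'⟩ fun e => h' (ph_eq_one.1 (congrArg Subtype.val e))).symm)
theorem O1m (hw : W w) (hg : g ∈ NW w) (hg' : g' ∈ NW w) (h : g ∉ 𝐂[w]) (h' : g' ∉ 𝐂[w]) :
    g * g' ∈ 𝐂[w] := by
  rw [← ph_eq_one, ph_mul hg hg', ← O.O1 hw hg hg' h h', ph_sq hw.sq hg]
theorem O1iv (hw : W w) (w2 : w * w ≠ 1) (hg : g ∈ NW w) (h : g ∉ 𝐂[w]) : Iv g w := by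
  obtain ⟨t, ht⟩ := hw.re
  exact Iv.of_ph ((O.O1 hw hg (ht.mem_NW hw.sq) h fun c => w2 (ht.sq_eq_one c)).trans ht.ph_eq)

/-- Let `r ∈ R ⊓ NW w`, `r ∉ 𝐂[w]`.  Of `t`, `t * r` (both in `S - R`, inverting `y`) one centralizes `w` and
the other does not (`O1m`).  If `w² = 1` use `Hyp.A`; otherwise `O1iv` and `Hyp.B1` with `X := R ⊓ NW w`. -/
theorem c0 (hT : Tri y R S) (hw : W w) (wR : w ∈ R) (ht : t ∈ S) (tR : t ∉ R) (tN : t ∈ NW w) :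
    R ⊓ NW w ≤ 𝐂[w] := by
  rintro r ⟨rR, rN⟩
  by_contra rc
  have i1 := hT.iv ht tR
  have i2 := hT.iv (mul_mem ht (hT.le rR)) fun e => tR (by simpa using mul_mem e (inv_mem rR))
  obtain ⟨c, n, ic, cw, i, nN, nw⟩ : ∃ c n, Iv c y ∧ c ∈ 𝐂[w] ∧ Iv n y ∧ n ∈ NW w ∧ n ∉ 𝐂[w] := by
    by_cases tc : t ∈ 𝐂[w]
    · exact ⟨t, t * r, i1, tc, i2, mul_mem tN rN, fun e => rc (by simpa using mul_mem (inv_mem tc) e)⟩
    · exact ⟨t * r, t, i2, O.O1m hw tN rN tc rc, i1, tN, tc⟩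
  by_cases w2 : w * w = 1
  · exact hw.nc (O.hyp.A w2 hT.ro (hT.le_cent wR) (mem_cent1_symm cw) ic)
  · exact rc (O.hyp.B1 (tw_of_mem hT.pR wR) hw.nc hT.ro (hT.le_cent wR) (O.O1iv hw w2 nN nw) i
      (pgroup_of_le hT.pR inf_le_left) (inf_le_left.trans hT.le_cent) inf_le_right ⟨rR, rN⟩)

/-- Induction on `S ⊓ NW w` (well-founded `>`).  If `S ≤ NW w`: `R ≤ 𝐂[w]` by `c0`, and `|S ⊓ 𝐂[w]| ≤ m`.
Otherwise take `g`, `v ∈ R` from `step`; by induction `S ⊓ 𝐂[v] = R`.  But `t` and `g⁻¹ t g` lie in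
`S ⊓ NW w - R`, so `ph t v = ph (t * (g⁻¹ t g)) w = 1` by `c0`. -/
theorem c1 (hT : Tri y R S) (hw : W w) (wR : w ∈ R) (ht : t ∈ S) (tR : t ∉ R) (tN : t ∈ NW w) :
    S ≤ NW w ∧ S ⊓ 𝐂[w] = R := by
  suffices ∀ X : Subgroup G, ∀ w, S ⊓ NW w = X → W w → w ∈ R → t ∈ NW w → S ≤ NW w ∧ S ⊓ 𝐂[w] = R from
    this _ w rfl hw wR tN
  intro X
  induction X using WellFoundedGT.induction with | ind X ih =>
  rintro w rfl hw wR tN
  have c := O.c0 hT hw wR ht tR tN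
  by_cases h : S ≤ NW w
  · refine ⟨h, (eq_of_le_of_card_le (le_inf hT.le ((le_inf le_rfl (hT.le.trans h)).trans c)) ?_).symm⟩
    rw [O.hyp.cardR hT]
    exact O.hyp.le_m hw.re hw.nc (pgroup_of_le hT.pT inf_le_left) inf_le_right
  obtain ⟨g, gS, gN, -, gn, hv, l, gv, e, -⟩ := step hT.pT (hT.le wR) hw.sq h
  obtain ⟨-, e2⟩ := ih _ (lt_of_le_not_ge (le_inf inf_le_left l) fun a => gN (a (mem_inf.2 ⟨gS, gv⟩)).2)
    _ rfl hv.w (mul_mem wR (inv_mem (conj_mem_of_norm (hT.norm gS) wR))) (l ⟨ht, tN⟩)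
  have t1 := conj_mem_of_norm' gn (⟨ht, tN⟩ : t ∈ S ⊓ NW w)
  have t2 := c ⟨hT.mul_mem ht t1.1 tR fun a => tR (by simpa [mul_assoc] using conj_mem_of_norm (hT.norm gS) a),
    mul_mem tN t1.2⟩
  rw [← ph_eq_one, ph_mul tN t1.2, ← e t ⟨ht, tN⟩, ph_eq_one] at t2
  exact absurd (e2.le ⟨ht, t2⟩) tR

/-- Make `t` a 2-element; `tri_ex` for `zpowers w ⊔ zpowers t` (`pgroup_two`); `c1`. -/
theorem c3 (hw : W w) (hy : y ∈ 𝐂[w]) (ht : t ∈ 𝐂[w]) (ho : Odd (orderOf y)) (h : Iv t y) : y = 1 := by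
  by_contra y1
  obtain ⟨n, -, tw, i⟩ := h.exists_tw
  have tc := pow_mem ht n
  obtain ⟨R, T, hT, l⟩ := tri_ex ⟨y1, ho, t, h⟩ (pgroup_two (O.hyp.tw_sq hw.sq) tw (mem_cent1.1 tc).symm)
    (sup_le (zpowers_le.2 (cent_le_CS y (mem_cent1_symm hy))) (zpowers_le.2 i.mem_CS))
  have tT := l (mem_sup_right (mem_zpowers _))
  exact hT.not_mem i ((O.c1 hT hw (hT.mem (l (mem_sup_left (mem_zpowers _))) (mem_cent1_symm hy)) tT
    (hT.not_mem i) (cent_le_NW w tc)).2.le ⟨tT, tc⟩)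

/-- Let `u ∉ Z`, `w` its last power outside `Z`; `t` inverts `w`, `c1` gives `R ≤ 𝐂[w]`.  `𝐂[w]` is 2-closed
(`c3`, `closed_of`), so `R` and a Sylow 2-subgroup of `𝐂[u] ≤ 𝐂[w]`, both of order `m`, are equal. -/
theorem zr (hT : Tri y R S) (hu : u ∈ R) (ht : t ∈ S) (tR : t ∉ R) (h : Iv t u) : u ∈ 𝐂(R) := by
  by_cases uZ : u ∈ center G
  · exact center_le_centS R uZ
  obtain ⟨k, n, sq⟩ := last_pow (tw_of_mem hT.pR hu) uZ
  have hw : W (u ^ 2 ^ k) := ⟨n, sq, (h.pow _).re⟩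
  have l : R ≤ 𝐂[u ^ 2 ^ k] :=
    (O.c1 hT hw (pow_mem hu _) ht tR ((h.pow _).mem_NW sq)).2.ge.trans inf_le_right
  have cl := closed_of (H := 𝐂[u ^ 2 ^ k]) fun y hy t ht ho h => O.c3 hw hy ht ho h
  have e := eq_of_le_of_card_le (le_closed cl l hT.pR) (by
    rw [O.hyp.cardR hT]; exact O.hyp.le_m hw.re n cl.pgroup cl.le)
  obtain ⟨P, hP⟩ := Syl.exists 2 𝐂[u]
  have e2 := eq_of_le_of_card_le ((le_closed cl (hP.le.trans (cent1_le_cent1_pow u _)) hP.pgroup).trans e.ge)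
    (by rw [O.hyp.cardR hT, O.hyp.syl u h.re uZ P hP])
  exact le_cent1_iff.1 (e2 ▸ hP.le)

end One

end Cfsg.Lib.RC2
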