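import Cfsg.Agent.Lib.RC2.One1

/-! # S3860: the case of 2-part 2, part 2 -/

set_option autoImplicit false
set_option linter.unusedSectionVars false
set_option linter.unusedVariables false

namespace Cfsg.Lib.RC2

open Subgroup Cfsg.Lib.BG Cfsg.Lib.GW Cfsg.Lib.CT Cfsg.Lib.Transfer
open scoped Cfsg.Lib.Transfer

variable {G : Type*} [Group G] [Finite G] {m : ℕ} {H K P R S T X Y : Subgroup G}
  {a c d e f g h r s t u v w x y z d' f' g' x' : G}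

namespace One
variable (O : One G m) (hT : Tri y R S) (hx : x ∈ S) (xR : x ∉ R) (x2 : x * x ∈ center G)
include O hT hx xR x2

/-- `δ(r) = r⁻¹ * (x r x⁻¹)` is inverted by `x` (`iv_comm`); `zr`. -/
theorem dl (hr : r ∈ R) : r⁻¹ * (x * r * x⁻¹) ∈ R ⊓ 𝐂(R) := by
  have a := mul_mem (inv_mem hr) (conj_mem_of_norm (hT.norm hx) hr)
  exact ⟨a, O.zr hT a hx xR (iv_comm (center_le_cent r x2))⟩
theorem dl_mul (hr : r ∈ R) (hs : s ∈ R) :
    (r * s)⁻¹ * (x * (r * s) * x⁻¹) = r⁻¹ * (x * r * x⁻¹) * (s⁻¹ * (x * s * x⁻¹)) := by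
  have := mem_cent.1 (O.dl hT hx xR x2 hr).2 _ (inv_mem hs)
  rw [← mul_assoc _ s⁻¹, ← this]
  group
/-- `x r x⁻¹ = r δ(r)` with `δ(r)` central in `R`. -/
theorem der (hr : r ∈ R) (hs : s ∈ R) : ph r s ∈ 𝐂[x] := by
  obtain ⟨-, ha⟩ := O.dl hT hx xR x2 hr
  obtain ⟨bR, hb⟩ := O.dl hT hx xR x2 hs
  have e := ph_conj x r s
  rw [← mul_inv_cancel_left r (x * r * x⁻¹), ← mul_inv_cancel_left s (x * s * x⁻¹)] at e
  generalize r⁻¹ * (x * r * x⁻¹) = a at ha e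
  generalize s⁻¹ * (x * s * x⁻¹) = b at bR hb e
  have h1 := mem_cent.1 ha _ (mul_mem hs bR)
  have h2 := mem_cent.1 hb _ (inv_mem hr)
  have : ph (r * a) (s * b) = ph r s := by
    unfold ph
    calc r * a * (s * b) * (r * a)⁻¹ * (s * b)⁻¹ = r * (a * (s * b)) * a⁻¹ * r⁻¹ * (s * b)⁻¹ := by group
      _ = r * s * (b * r⁻¹) * (s * b)⁻¹ := by rw [← h1]; group
      _ = _ := by rw [← h2]; group
  rw [this] at e
  exact mem_cent1.2 (eq_mul_inv_iff_mul_eq.1 e)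
/-- An involution of `R` centralizing `x` is central (`Hyp.A`). -/
theorem inv_z (hu : u ∈ R) (h : u * u = 1) (hc : u ∈ 𝐂[x]) : u ∈ center G := by
  exact O.hyp.A h hT.ro (hT.le_cent hu) hc (hT.iv hx xR)

/-- `e = ph u r ∈ R` is inverted by `u` (`iv_comm'`) and centralized by `x` (`der`), so `u * x ∈ S - R`
inverts it; by `zr` it commutes with `u`, so `e² = 1`; `inv_z`, `NW_symm`. -/
theorem rn (hu : u ∈ R) (hr : r ∈ R) (h : u * u ∈ 𝐂[r]) : r ∈ NW u := by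
  have eR : ph u r ∈ R := mul_mem (mul_mem (mul_mem hu hr) (inv_mem hu)) (inv_mem hr)
  have i := iv_comm' h
  have c := O.der hT hx xR x2 hu hr
  have z := O.zr hT eR (mul_mem (hT.le hu) hx) (fun e => xR (by simpa using mul_mem (inv_mem hu) e))
    (i.mul_cent (mem_cent1_symm c))
  exact NW_symm (O.inv_z hT hx xR x2 eR (i.sq_eq_one (le_cent1_iff.2 z hu)) c)

/-- Let `A = R ⊓ 𝐂(R)` and `D = ⁅A, zpowers a⁆ ≤ A`, normalized by `x`.  If `D ≠ ⊥`, `exists_inv_fixed` and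
`inv_z` give `1 ≠ b ∈ D` central; but `D ⊓ 𝐂(zpowers a) = ⊥` (`coprime_abelian_cent_dprod`). -/
theorem odd_cent_Z (ha : a ∈ 𝐍(R)) (ho : Odd (orderOf a)) (h : Iv x a) : R ⊓ 𝐂(R) ≤ 𝐂[a] := by
  have n1 : zpowers a ≤ 𝐍(R ⊓ 𝐂(R)) := norm_center (zpowers_le.2 ha)
  have pA : IsPGroup 2 ↥(R ⊓ 𝐂(R)) := pgroup_of_le hT.pR inf_le_left
  have l := comm_le_left n1
  by_contra hn
  obtain ⟨b, hb, b1, b2, bx⟩ := exists_inv_fixed (pgroup_of_le pA l) (fun e => hn (comm_zp_eq_bot.1 e))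
    (zpowers_le.1 (norm_comm (norm_center (zpowers_le.2 (hT.norm hx))) (zpowers_le.2 h.norm))) (O.hyp.tw_sq x2)
  obtain ⟨k, hk⟩ := pA.exists_card_eq
  have d := coprime_abelian_cent_dprod n1 (by
    rw [Nat.card_zpowers, hk]; exact (Nat.coprime_two_right.2 ho).pow_right k) (abelian_center R)
  exact b1 (mem_bot.1 (d.inf.le ⟨hb, l hb, center_le_centS _ (O.inv_z hT hx xR x2 (l hb).1 b2 bx)⟩))

/-- `R ≤ NW w` by `rn`; `L'` gives a Sylow `R ≤ S' ≤ NW w`, normalizing `R` (index 2), so `S' = n ⋆ S` with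
`n ∈ 𝐍(R)`.  `c1` for `hT.conj n` gives `R ≤ 𝐂[w]`.  `x' = n x n⁻¹ ∈ S' - R`, `h = x⁻¹ x' ∈ 𝐍(R)` is
inverted by `x` (`dih`), `h = h^i h^j`.  `(R ⊔ zpowers (h^i)) ⊔ zpowers x` is a 2-group containing `S`, so
`h^i ∈ S` and `x h^i = x' (h^j)⁻¹ ∈ NW w` (`odd_cent_Z`).  If `h^i ∈ R` then `x ∈ NW w`.  Otherwise
`r = x h^i ∈ R` and `h^j = r⁻¹ x'` lies in the 2-group `S'`, so `x' = r ∈ R`.  Finish with `c1`. -/
theorem wz (hw : W w) (wR : w ∈ R) : w ∈ 𝐂(R) ∧ S ≤ NW w ∧ S ⊓ 𝐂[w] = R := by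
  have l : R ≤ NW w := fun r hr => O.rn hT hx xR x2 wR hr (center_le_cent r hw.sq)
  obtain ⟨S', hS', l1, l2, -⟩ := O.hyp.L' hw hT.pR l
  have hS := O.sylT hT
  have c1 : Nat.card S' = 2 * Nat.card R := by rw [O.one S' hS', O.hyp.cardR hT]
  have n' : S' ≤ 𝐍(R) := by
    obtain ⟨g, gS, gR, g2, gn⟩ := exists_norm_sq hS'.pgroup (lt_of_le_of_ne l1 fun e => by
      have : 0 < Nat.card R := Nat.card_pos
      rw [← e] at c1; omega)
    rw [← eq_of_le_of_card_le (sup_le l1 (zpowers_le.2 gS)) (by rw [card_sup_sq gn gR g2, c1])]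
    exact sup_le_norm_left (zpowers_le.2 gn)
  obtain ⟨n, hn, rfl⟩ := Syl.exists_conj_eq (hS.of_le hT.norm le_top) (hS'.of_le n' le_top)
  have hT' := hT.conj n
  rw [conj_eq_of_norm hn] at hT'
  have xS' : n * x * n⁻¹ ∈ n ⋆ S := conj_mem_conj.2 hx
  have xR' : n * x * n⁻¹ ∉ R := fun e => xR (by simpa [mul_assoc] using conj_mem_of_norm' hn e)
  have wc : w ∈ 𝐂(R) := le_cent1_iff.1 ((O.c1 hT' hw wR xS' xR' (l2 xS')).2.ge.trans inf_le_right)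
  refine ⟨wc, O.c1 hT hw wR hx xR ?_⟩
  have iv := dih (conj_sq x2 n).symm
  have hN : x⁻¹ * (n * x * n⁻¹) ∈ 𝐍(R) := mul_mem (inv_mem (hT.norm hx)) (n' xS')
  obtain ⟨i, j, ti, oj, e, -⟩ := parts (x⁻¹ * (n * x * n⁻¹))
  have ivi := iv.pow i
  have ivj := iv.pow j
  have ni := pow_mem hN i
  have nj := pow_mem hN j
  generalize (x⁻¹ * (n * x * n⁻¹)) ^ i = p at ti e ivi ni
  generalize (x⁻¹ * (n * x * n⁻¹)) ^ j = q at oj e ivj nj
  have pS : p ∈ S := by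
    rw [hS.eq_of_le_pgroup (Q := (R ⊔ zpowers p) ⊔ zpowers x)
      ((hT.sup hx xR).ge.trans (sup_le_sup_right le_sup_left _)) le_top
      (pgroup_sup_tw (pgroup_sup_tw hT.pR ni ti)
        (zpowers_le.1 (norm_sup (zpowers_le.2 (hT.norm hx)) (zpowers_le.2 ivi.norm))) (O.hyp.tw_sq x2))]
    exact mem_sup_left (mem_sup_right (mem_zpowers p))
  have e' : x * p * q = n * x * n⁻¹ := by rw [mul_assoc, e, mul_inv_cancel_left]
  by_cases pR : p ∈ R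
  · have qN := cent_le_NW w (mem_cent1_symm (O.odd_cent_Z hT hx xR x2 nj oj ivj ⟨wR, wc⟩))
    have := l2 xS'
    rw [← e'] at this
    simpa using mul_mem (mul_mem this (inv_mem qN)) (inv_mem (l pR))
  · have rR := hT.mul_mem hx pS xR pR
    have q0 := mul_mem (inv_mem (l1 rR)) xS'
    rw [← e', inv_mul_cancel_left] at q0
    have q1 := tw_eq_one (tw_of_mem hS'.pgroup q0) oj
    rw [q1, mul_one] at e'
    exact absurd (e' ▸ rR) xR'

end One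

end Cfsg.Lib.RC2
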