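import Cfsg.Agent.Lib.RC2.El

/-! # S3860: reduction to O(G) = 1 -/

set_option autoImplicit false
set_option linter.unusedSectionVars false
set_option linter.unusedVariables false

namespace Cfsg.Lib.RC2

open Subgroup Cfsg.Lib.BG Cfsg.Lib.GW Cfsg.Lib.CT Cfsg.Lib.Transfer
open scoped Cfsg.Lib.Transfer

variable {G : Type*} [Group G] [Finite G] {m : ℕ} {H K P R S T X Y : Subgroup G}
  {a c d e f g h r s t u v w x y z d' f' g' x' : G}

/-- `m = 2 ^ (s - a)` with `2 ^ s` the 2-part of `|G|` (`index_mul_card`, `Nat.factorization_mul`). -/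
theorem hyp0_of (n : ℕ) (h : ∀ x : G, IsConj x x⁻¹ → x ∉ center G → (𝐂[x].index).factorization 2 = n) :
    ∃ m, Hyp0 G m := by
  refine ⟨2 ^ ((Nat.card G).factorization 2 - n), fun x hx hn P hP => ?_⟩
  obtain ⟨S, rfl⟩ := Syl.iff_sylow.1 hP
  rw [card_map_of_injective (subtype_injective _), S.card_eq_multiplicity, ← h x (re_iff.1 hx) hn,
    ← 𝐂[x].index_mul_card, Nat.factorization_mul index_ne_zero_of_finite Nat.card_pos.ne']
  simp

theorem syl_ex_iv (hx : Re x) (hT : Syl 2 T (CS x)) : ∃ t ∈ T, Iv t x := by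
  obtain ⟨t, e⟩ := hx
  obtain ⟨n, -, tw, e⟩ := e.exists_tw
  obtain ⟨g, hg, e'⟩ := syl_conj1 hT tw e.mem_CS
  refine ⟨_, e', ?_⟩
  have := e.conj g
  rcases hg with hg | hg
  · rwa [hg] at this
  · rw [hg] at this; simpa using this.inv

theorem card_map_two (N : Subgroup G) [N.Normal] (hN : Odd (Nat.card N)) (hP : IsPGroup 2 P) :
    Nat.card (P.map (QuotientGroup.mk' N)) = Nat.card P :=
  (Nat.card_congr (mapEquiv (QuotientGroup.mk' N) (by
    rw [QuotientGroup.ker_mk']; exact disjoint_of_coprime (cop_two hP hN))).toEquiv).symm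

/-- Let `π = mk' N`, `x̄ = ū ȳ` (`parts`), `T̄` Sylow in `CS x̄`, `P̄ = T̄ ⊓ 𝐂[x̄]` Sylow in `𝐂[x̄]`; `ū ∈ P̄`
(it is in the normal 2-subgroup `zpowers ū` of `CS x̄`) and some `t̄ ∈ T̄` inverts `x̄`.  Let `T` be a Sylow
2-subgroup of the preimage of `T̄`; `π` maps `T` isomorphically onto `T̄`.  Let `u, t ∈ T`, `P ≤ T` be the
lifts: `t` inverts `u`, normalizes `P`, `t² ∈ P`, `P` centralizes `u`.  The preimage `Y` of `zpowers ȳ` has
odd order and `⁅Y, P⁆ ≤ N`, so `Y = N ⊔ (Y ⊓ 𝐂(P))` (coprime action).  Take `y₀ ∈ Y ⊓ 𝐂(P)` with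
`(π y₀)⁻² = ȳ` and `y = y₀⁻¹ * (t y₀ t⁻¹) ∈ Y ⊓ 𝐂(P)` (`iv_comm`); `x = u * y`. -/
theorem lift (N : Subgroup G) [N.Normal] (hN : Odd (Nat.card N)) {xb : G ⧸ N} (hx : Re xb)
    {Pb : Subgroup (G ⧸ N)} (hP : Syl 2 Pb 𝐂[xb]) :
    ∃ (x : G) (P : Subgroup G), Re x ∧ QuotientGroup.mk' N x = xb ∧ IsPGroup 2 P ∧ P ≤ 𝐂[x] ∧
      Nat.card P = Nat.card Pb := by
  have hs := QuotientGroup.mk'_surjective N
  have hk := QuotientGroup.ker_mk' N
  have hcard := fun P : Subgroup G => card_map_two (P := P) N hN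
  generalize QuotientGroup.mk' N = π at *
  obtain ⟨i, j, h1, ⟨k, h2⟩, h3, -⟩ := parts xb
  obtain ⟨Tb, hTb⟩ := Syl.exists (p := 2) (CS xb)
  obtain ⟨tb, ht, iv⟩ := syl_ex_iv hx hTb
  obtain ⟨T, hT⟩ := Syl.exists (p := 2) (Tb.comap π)
  have hm : T.map π = Tb := by
    have := hT.map π
    rw [map_comap_eq_self_of_surjective hs] at this
    exact this.eq_self hTb.pi
  have inj : ∀ a ∈ T, ∀ b ∈ T, π a = π b → a = b := fun a ha b hb e => by
    have : a⁻¹ * b ∈ T ⊓ N := ⟨T.mul_mem (T.inv_mem ha) hb, by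
      refine hk.le (MonoidHom.mem_ker.2 ?_); rw [map_mul, map_inv, e, inv_mul_cancel]⟩
    rwa [disjoint_of_coprime (cop_two hT.pgroup hN), mem_bot, inv_mul_eq_one] at this
  have hu : xb ^ i ∈ Tb := zpowers_le.1 (hTb.ge_of_norm_p
    (zpowers_le.2 (cent_le_CS xb (pow_mem (self_mem_cent1 xb) i))) h1 fun g hg => by
      rcases hTb.le hg with e | e
      · exact cent_le_norm _ (by rw [cent_zpowers]; exact cent1_le_cent1_pow xb i (cent_of_conj e))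
      · exact (e.pow i).norm)
  rw [← hm] at hu ht
  obtain ⟨u, uT, eu⟩ := hu
  obtain ⟨t, tT, rfl⟩ := ht
  have ivu : Iv t u := inj _ (mul_mem (mul_mem tT uT) (inv_mem tT)) _ (inv_mem uT) (by
    rw [map_mul, map_mul, map_inv, map_inv, eu]; exact iv.pow i)
  have pP : IsPGroup 2 ↥(T ⊓ 𝐂[xb].comap π) := pgroup_of_le hT.pgroup inf_le_left
  have uP : u ∈ T ⊓ 𝐂[xb].comap π := ⟨uT, by
    show π u ∈ 𝐂[xb]; rw [eu]; exact pow_mem (self_mem_cent1 xb) i⟩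
  have Pu : T ⊓ 𝐂[xb].comap π ≤ 𝐂[u] := fun a ha => mem_cent1.2 (inj _ (mul_mem ha.1 uT) _
    (mul_mem uT ha.1) (by rw [map_mul, map_mul, eu]; exact mem_cent1.1 (cent1_le_cent1_pow xb i ha.2)))
  have tP : t ∈ 𝐍(T ⊓ 𝐂[xb].comap π) := norm_inf (le_norm T)
    (hT.le.trans (comap_le_norm π (hTb.le.trans (cent_nml_CS xb).norm))) tT
  have t2 : t * t ∈ T ⊓ 𝐂[xb].comap π := ⟨mul_mem tT tT, by
    show π _ ∈ 𝐂[xb]; rw [map_mul]; exact iv.mul_iv iv⟩
  have oY : Odd (Nat.card ((zpowers (xb ^ j)).comap π)) := pi_odd_iff.1 (PiGrp.of_map (f := π)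
    (by rw [map_comap_eq_self_of_surjective hs]; exact pi_odd_iff.2 (odd_zpowers ⟨k, h2⟩))
    ((pi_odd_iff.2 hN).of_le (inf_le_right.trans hk.le)))
  obtain ⟨y₁, e₁⟩ := hs ((xb ^ j) ^ k)
  obtain ⟨n, hn, c, hc, rfl⟩ := (mem_sup_left_norm le_normalizer_of_normal).1
    (coprime_le_sup_cent (N := N) (hk.ge.trans (ker_le_comap _ _)) (cop_two pP oY) (.inl (pgroup_sol pP))
      (comm_le_iff.2 fun a ⟨l, ha⟩ b hb => by
        refine hk.le (MonoidHom.mem_ker.2 ?_)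
        rw [map_mul, map_mul, map_mul, map_inv, map_inv, ← ha]
        exact ph_eq_one.2 (mem_cent1_symm (cent1_le_cent1_zpow _ l (cent1_le_cent1_pow xb j hb.2))))
      (show y₁ ∈ _ by rw [mem_comap, e₁]; exact pow_mem (mem_zpowers _) k))
  rw [map_mul, show π n = 1 from hk.ge hn, one_mul] at e₁
  have yP : c⁻¹ * (t * c * t⁻¹) ∈ 𝐂(T ⊓ 𝐂[xb].comap π) :=
    mul_mem (inv_mem hc.2) (conj_mem_of_norm (norm_cent le_rfl tP) hc.2)
  refine ⟨u * (c⁻¹ * (t * c * t⁻¹)), _, (ivu.mul (iv_comm (le_cent1_iff.2 hc.2 t2))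
    (le_cent1_iff.2 yP uP)).re, ?_, pP, fun a ha => mul_mem_cent1 (Pu ha) (le_cent1_iff.2 yP ha) rfl, ?_⟩
  · rw [map_mul, map_mul, map_mul, map_mul, map_inv, map_inv, eu, e₁, (iv.pow j).pow k, ← mul_inv_rev,
      ← pow_add, ← two_mul, inv_eq_of_mul_eq_one_right (by rw [← pow_succ, ← h2, pow_orderOf_eq_one]), h3]
  · rw [← hcard _ pP, inf_comm, map_inf_of_ker_le π (ker_le_comap _ _), map_comap_eq_self_of_surjective hs, hm,
      inf_comm]
    exact (hTb.inf_nml (cent_nml_CS xb)).card_eq hP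

/-- A Sylow 2-subgroup `P₁ ≥ P` of `𝐂[x]` maps injectively into `𝐂[xb]`. -/
theorem red (h : Hyp0 G m) (N : Subgroup G) [N.Normal] (hN : Odd (Nat.card N)) : Hyp0 (G ⧸ N) m := by
  intro xb hx hn Pb hP
  obtain ⟨x, P, h1, rfl, h3, h4, h5⟩ := lift N hN hx hP
  obtain ⟨S, hS, e⟩ := Syl.exists_ge h3 h4
  rw [← h x h1 (fun hz => hn (mem_center_iff.2 fun g => by
    obtain ⟨g, rfl⟩ := QuotientGroup.mk'_surjective N g
    rw [← map_mul, ← map_mul, mem_center_iff.1 hz g])) S hS]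
  refine le_antisymm (h5 ▸ card_le_of_le e) ?_
  rw [← card_map_two N hN hS.pgroup]
  refine hP.card_le (hS.pgroup.map _) ?_
  rintro _ ⟨a, ha, rfl⟩
  exact mem_cent1.2 (by rw [← map_mul, ← map_mul, mem_cent1.1 (hS.le ha)])

end Cfsg.Lib.RC2
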